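import Mathlib
import Cfsg.Agent.QT.Tame
import Cfsg.Agent.Gold.CTwoPres

/-!
Three commuting symmetric groups in the Baby Monster and in the Monster.
-/

set_option autoImplicit false

namespace Cfsg.Agent.QT

open Subgroup Cfsg Cfsg.Spor Cfsg.Agent.Gold.CTwo

variable {α : Type} [DecidableEq α] {E : List (α × ℕ × α)} {H : Type*} [Group H] {f : α → H}

theorem cx_conj (h : Cx E f) {x y : α} (l : Lab E x y 3) :
    f x * (f x * f y) * (f x)⁻¹ = (f x * f y)⁻¹ := by
  rw [← mul_assoc, h.sq l.1, one_mul, mul_inv_rev, inv_eq_of_mul_eq_one_right (h.sq l.2.1)]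

theorem cx_ne_one (h : Cx E f) {x y : α} (l : Lab E x y 3) (n : f x ≠ f y) : f x * f y ≠ 1 :=
  fun e => n ((eq_inv_of_mul_eq_one_left e).trans (inv_eq_of_mul_eq_one_right (h.sq l.2.1)))

theorem cx_comm_two (h : Cx E f) {x y z : α} (l : Lab E x y 2 ∧ Lab E x z 2) :
    Commute (f x) (f y * f z) := (h.comm l.1).mul_right (h.comm l.2)

theorem cx_comm_four (h : Cx E f) {x y z w : α}
    (l : (Lab E x z 2 ∧ Lab E x w 2) ∧ Lab E y z 2 ∧ Lab E y w 2) :
    Commute (f x * f y) (f z * f w) := (cx_comm_two h l.1).mul_left (cx_comm_two h l.2)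

theorem cx_conj_two (h : Cx E f) {x y z : α} (l : Lab E x y 3 ∧ Lab E z x 2 ∧ Lab E z y 2) :
    f x * f z * (f x * f y) * (f x * f z)⁻¹ = (f x * f y)⁻¹ := by
  rw [← cx_conj h l.1, mul_assoc (f x) (f z), (cx_comm_two h l.2).eq]
  group

theorem cx_mem_two (h : Cx E f) {x y : α} (l : x ∈ coxNodes E)
    (hu : Abelianization.of (f y) = Abelianization.of (f x)) :
    f x * f y ∈ _root_.commutator H := by
  have h4 := (h.map (Abelianization.of (G := H))).sq l
  rw [← Abelianization.ker_of, MonoidHom.mem_ker, map_mul, hu, h4]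

theorem baby_all {f : BabyMonster.Gen → H} (C : Cx BabyMonster.edges f) {s : H} (h4 : f .t4 = s)
    (h5 : f .t5 = s) (h6 : f .t6 = s) (x : BabyMonster.Gen) : f x = s := by
  have h3 := C.step (z := .t3) h5 h4 (by decide)
  have h2 := C.step (z := .t2) h5 h3 (by decide)
  have h1 := C.step (z := .t1) h5 h2 (by decide)
  have h7 := C.step (z := .t7) h5 h6 (by decide)
  have h8 := C.step (z := .t8) h5 h7 (by decide)
  have h9 := C.step (z := .t9) h4 h5 (by decide)
  have h10 := C.step (z := .t10) h5 h9 (by decide)
  have h11 := C.step (z := .t11) h5 h10 (by decide)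
  cases x <;> assumption

theorem big_baby (hn : ¬ IsMulCommutative BabyMonster) : Big BabyMonster := by
  have C := cx_of (E := BabyMonster.edges) (X := BabyMonster.extra)
  have key : ∀ {s : BabyMonster}, (∀ x, PresentedGroup.of x = s) → False := fun h =>
    hn ⟨⟨comm_of_gen h⟩⟩
  refine ⟨3, _, _, _, _, _, _, Nat.prime_three, by norm_num, C.lab (x := .t1) (y := .t2) (by decide),
    C.lab (x := .t7) (y := .t8) (by decide), C.lab (x := .t10) (y := .t11) (by decide),
    cx_ne_one C (by decide) fun e => ?_, cx_ne_one C (by decide) fun e => ?_,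
    cx_ne_one C (by decide) fun e => ?_, cx_comm_four C (by decide), cx_comm_four C (by decide),
    cx_comm_four C (by decide), cx_conj C (by decide), cx_conj C (by decide), cx_conj C (by decide),
    cx_comm_two C (by decide), cx_comm_two C (by decide), cx_comm_two C (by decide)⟩
  · have h3 := C.step (z := .t3) e rfl (by decide)
    have h4 := C.step (z := .t4) e h3 (by decide)
    have h5 := C.step (z := .t5) e h4 (by decide)
    exact key (baby_all C h4 h5 (C.step (z := .t6) e h5 (by decide)))
  · have h6 := C.step (z := .t6) rfl e (by decide)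
    have h5 := C.step (z := .t5) e h6 (by decide)
    exact key (baby_all C (C.step (z := .t4) e h5 (by decide)) h5 h6)
  · have h9 := C.step (z := .t9) rfl e (by decide)
    have h5 := C.step (z := .t5) e h9 (by decide)
    exact key (baby_all C (C.step (z := .t4) e h5 (by decide)) h5
      (C.step (z := .t6) e h5 (by decide)))

theorem bim_all {f : Bimonster.Gen → H} (C : Cx Bimonster.edges f) {s : H} (ha : f .a = s)
    (hb1 : f .b1 = s) (hb2 : f .b2 = s) (hb3 : f .b3 = s) (x : Bimonster.Gen) : f x = s := by
  have hc1 := C.step (z := .c1) ha hb1 (by decide)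
  have hd1 := C.step (z := .d1) ha hc1 (by decide)
  have he1 := C.step (z := .e1) ha hd1 (by decide)
  have hf1 := C.step (z := .f1) ha he1 (by decide)
  have hc2 := C.step (z := .c2) ha hb2 (by decide)
  have hd2 := C.step (z := .d2) ha hc2 (by decide)
  have he2 := C.step (z := .e2) ha hd2 (by decide)
  have hf2 := C.step (z := .f2) ha he2 (by decide)
  have hc3 := C.step (z := .c3) ha hb3 (by decide)
  have hd3 := C.step (z := .d3) ha hc3 (by decide)
  have he3 := C.step (z := .e3) ha hd3 (by decide)
  have hf3 := C.step (z := .f3) ha he3 (by decide)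
  cases x <;> assumption

theorem big_monster (hn : ¬ IsMulCommutative Monster) : Big Monster := by
  have C := cx_of (E := Bimonster.edges) (X := Bimonster.extra)
  have key : ∀ {s : Bimonster}, (∀ x, PresentedGroup.of x = s) → False := fun h =>
    hn ⟨⟨fun a b => Subtype.ext (comm_of_gen h a.1 b.1)⟩⟩
  have m : ∀ {x y : Bimonster.Gen}, (Lab Bimonster.edges .a x 2 ∧ Lab Bimonster.edges .a y 2) →
      Abelianization.of (PresentedGroup.of y : Bimonster) =
        Abelianization.of (PresentedGroup.of x : Bimonster) →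
      (PresentedGroup.of x * PresentedGroup.of y : Bimonster) ∈
        centralizer {(PresentedGroup.of Bimonster.Gen.a : Bimonster)} ⊓ _root_.commutator Bimonster :=
    fun l h => ⟨mem_centralizer_singleton_iff.2 (cx_comm_two C l).symm.eq, cx_mem_two C l.1.2.1 h⟩
  refine ⟨3, ⟨_, m (x := .c1) (y := .d1) (by decide) (C.ab (by decide))⟩,
    ⟨_, m (x := .c2) (y := .d2) (by decide) (C.ab (by decide))⟩,
    ⟨_, m (x := .c3) (y := .d3) (by decide) (C.ab (by decide))⟩,
    ⟨_, m (x := .c1) (y := .f1) (by decide) ((C.ab (x := .e1) (by decide)).trans <|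
      (C.ab (x := .d1) (by decide)).trans (C.ab (by decide)))⟩,
    ⟨_, m (x := .c2) (y := .f2) (by decide) ((C.ab (x := .e2) (by decide)).trans <|
      (C.ab (x := .d2) (by decide)).trans (C.ab (by decide)))⟩,
    ⟨_, m (x := .c3) (y := .f3) (by decide) ((C.ab (x := .e3) (by decide)).trans <|
      (C.ab (x := .d3) (by decide)).trans (C.ab (by decide)))⟩, Nat.prime_three, by norm_num,
    Subtype.ext (C.lab (by decide)), Subtype.ext (C.lab (by decide)),
    Subtype.ext (C.lab (by decide)),
    fun e => cx_ne_one C (by decide) (fun e => ?_) (congrArg Subtype.val e),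
    fun e => cx_ne_one C (by decide) (fun e => ?_) (congrArg Subtype.val e),
    fun e => cx_ne_one C (by decide) (fun e => ?_) (congrArg Subtype.val e),
    Subtype.ext (cx_comm_four C (by decide)), Subtype.ext (cx_comm_four C (by decide)),
    Subtype.ext (cx_comm_four C (by decide)), Subtype.ext (cx_conj_two C (by decide)),
    Subtype.ext (cx_conj_two C (by decide)), Subtype.ext (cx_conj_two C (by decide)),
    Subtype.ext (cx_comm_four C (by decide)), Subtype.ext (cx_comm_four C (by decide)),
    Subtype.ext (cx_comm_four C (by decide))⟩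
  · have h1 := C.step (z := .b1) rfl e (by decide)
    have h2 := C.step (z := .a) e h1 (by decide)
    exact key (bim_all C h2 h1 (C.step e h2 (by decide)) (C.step e h2 (by decide)))
  · have h1 := C.step (z := .b2) rfl e (by decide)
    have h2 := C.step (z := .a) e h1 (by decide)
    exact key (bim_all C h2 (C.step e h2 (by decide)) h1 (C.step e h2 (by decide)))
  · have h1 := C.step (z := .b3) rfl e (by decide)
    have h2 := C.step (z := .a) e h1 (by decide)
    exact key (bim_all C h2 (C.step e h2 (by decide)) (C.step e h2 (by decide)) h1)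

theorem not_comm_of_equiv {A K : Type*} [Group A] [Group K] (e : K ≃* A)
    (hn : ¬ IsMulCommutative K) : ¬ IsMulCommutative A := fun h =>
  hn ⟨⟨fun a b => e.injective (by rw [map_mul, map_mul, h.1.1])⟩⟩

theorem big_of_isoB {K : Type*} [Group K] (hn : ¬ IsMulCommutative K) (h : IsoB K) : Big K :=
  let ⟨e⟩ := h
  (big_baby (not_comm_of_equiv e hn)).of_injective e.symm.toMonoidHom e.symm.injective

theorem big_of_isoM {K : Type*} [Group K] (hn : ¬ IsMulCommutative K) (h : IsoM K) : Big K :=
  let ⟨e⟩ := h
  (big_monster (not_comm_of_equiv e hn)).of_injective e.symm.toMonoidHom e.symm.injective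

end Cfsg.Agent.QT
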