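import Mathlib
import Cfsg.Agent.QT.Tame
import Cfsg.Agent.UL.Orders

/-!
Groups with a noncyclic subgroup of odd prime power order.
-/

set_option autoImplicit false

namespace Cfsg.Agent.QT

open Subgroup Cfsg

/-- Some Sylow subgroup of odd order is not cyclic. -/
def NC (K : Type*) [Group K] : Prop :=
  ∃ p : ℕ, p.Prime ∧ p ≠ 2 ∧ ∃ P : Subgroup K, IsPGroup p P ∧ ¬ IsCyclic P

variable {A K : Type*} [Group A] [Group K]

theorem NC.not_rank [Finite K] (h : NC K) (hr : ∀ p : ℕ, p.Prime → p ≠ 2 → PRankLE p 1 K) :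
    False := by
  obtain ⟨p, hp, hp2, P, h1, h2⟩ := h
  haveI := Fact.mk hp
  exact h2 (FT.R2.isCyclic_of_pRankLE_one hp2 h1 (FT.R2.pRankLE_subgroup (hr p hp hp2) P))

theorem NC.of_injective (f : A →* K) (hf : Function.Injective f) (h : NC A) : NC K := by
  obtain ⟨p, hp, hp2, P, h1, h2⟩ := h
  exact ⟨p, hp, hp2, P.map f, h1.map f, fun e => h2
    (isCyclic_of_surjective _ (P.equivMapOfInjective f hf).symm.surjective)⟩

theorem NC.of_equiv (e : K ≃* A) (h : NC A) : NC K := h.of_injective e.symm.toMonoidHom e.symm.injective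

theorem NC.of_le {G : Type*} [Group G] {H L : Subgroup G} (hle : H ≤ L) (h : NC H) : NC L :=
  h.of_injective (inclusion hle) (inclusion_injective hle)

theorem NC.of_surjective [Finite A] (f : A →* K) (hf : Function.Surjective f) (h : NC K) :
    NC A := by
  obtain ⟨p, hp, hp2, P, h1, h2⟩ := h
  haveI := Fact.mk hp
  obtain ⟨Q, q1, rfl⟩ := FT.R2.exists_isPGroup_map_eq f hf h1
  exact ⟨p, hp, hp2, Q, q1, fun e => h2 (isCyclic_of_surjective _ (f.subgroupMap_surjective Q))⟩

theorem nc_of_not_mem {p : ℕ} (hp : p.Prime) (hp2 : p ≠ 2) {x y : K} (hx : x ^ p = 1)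
    (hy : y ^ p = 1) (hc : Commute x y) (hx1 : x ≠ 1) (hxy : y ∉ zpowers x) : NC K := by
  haveI := Fact.mk hp
  have hE : ∀ g ∈ closure ({x, y} : Set K), g ^ p = 1 := by
    have h0 : ∀ g ∈ closure ({x, y} : Set K), g ∈ centralizer ({x, y} : Set K) :=
      closure_le _ |>.2 (by
        rintro _ (rfl | rfl) _ (rfl | rfl) <;> first | rfl | exact hc.eq | exact hc.eq.symm)
    intro g hg
    induction hg using closure_induction with
    | mem a ha => rcases ha with rfl | rfl <;> assumption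
    | one => exact one_pow p
    | mul a b ha hb iha ihb =>
      have : Commute a b :=
        (closure_le _).2 (fun c hc => mem_centralizer_singleton_iff.2 (h0 b hb c hc))
          ha |> mem_centralizer_singleton_iff.1
      rw [this.mul_pow, iha, ihb, one_mul]
    | inv a _ iha => rw [inv_pow, iha, inv_one]
  refine ⟨p, hp, hp2, closure {x, y}, fun g => ⟨1, Subtype.ext (by simpa using hE g.1 g.2)⟩,
    fun e => hxy ?_⟩
  obtain ⟨⟨g, hg⟩, h1⟩ := e.exists_generator
  have h2 : closure ({x, y} : Set K) ≤ zpowers g := fun a ha => by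
    obtain ⟨k, hk⟩ := h1 ⟨a, ha⟩
    exact ⟨k, by simpa using congrArg Subtype.val hk⟩
  have h3 : x ∈ zpowers g := h2 (subset_closure (by simp))
  have h4 : orderOf g = p := orderOf_eq_prime (hE g hg) (by
    rintro rfl
    exact hx1 (by simpa using h3))
  haveI : Finite (zpowers g) := Nat.finite_of_card_ne_zero (by
    rw [Nat.card_zpowers, h4]; exact hp.ne_zero)
  rw [eq_of_le_of_card_ge (zpowers_le_of_mem h3)
    (by rw [Nat.card_zpowers, Nat.card_zpowers, h4, orderOf_eq_prime hx hx1])]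
  exact h2 (subset_closure (by simp))

theorem commute_of_zpow_mul {p : ℕ} (hp : p.Prime) {x z u : A} (hx : x ^ p = 1) {k : ℤ}
    (hk : x ^ k ≠ 1) (hz : Commute z u) (h : Commute (x ^ k * z) u) : Commute x u := by
  haveI := Fact.mk hp
  have h1 : Commute (x ^ k) u := by simpa using h.mul_left hz.inv_left
  have hx1 : x ≠ 1 := fun e => hk (by rw [e, one_zpow])
  haveI : Finite (zpowers x) := Nat.finite_of_card_ne_zero (by
    rw [Nat.card_zpowers, orderOf_eq_prime hx hx1]; exact hp.ne_zero)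
  have h2 : zpowers (x ^ k) = zpowers x := eq_of_le_of_card_ge
    (zpowers_le_of_mem (zpow_mem (mem_zpowers x) k)) (by
      rw [Nat.card_zpowers, Nat.card_zpowers, orderOf_eq_prime hx hx1, orderOf_eq_prime (p := p) _ hk]
      rw [← zpow_natCast, ← zpow_mul, mul_comm, zpow_mul, zpow_natCast, hx, one_zpow])
  obtain ⟨j, hj⟩ : x ∈ zpowers (x ^ k) := h2 ▸ mem_zpowers x
  exact hj ▸ h1.zpow_left j

/-- Two commuting elements of order `p` told apart by `u`, in a central quotient. -/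
theorem nc_of_pair (f : A →* K) (hk : f.ker ≤ center A) {p : ℕ} (hp : p.Prime) (hp2 : p ≠ 2)
    {x y u v : A} (hx : x ^ p = 1) (hy : y ^ p = 1) (hc : Commute x y) (hyu : Commute y u)
    (hxu : ¬ Commute x u) (hyv : ¬ Commute y v) : NC K := by
  refine nc_of_not_mem hp hp2 (x := f x) (y := f y) (by rw [← map_pow, hx, map_one])
    (by rw [← map_pow, hy, map_one]) (hc.map f)
    (fun e => hxu (mem_center_iff.1 (hk e) u).symm) ?_
  rintro ⟨k, e⟩
  have h1 : x ^ k * y⁻¹ ∈ center A := hk (by simpa [mul_inv_eq_one] using e)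
  by_cases h2 : x ^ k = 1
  · rw [h2, one_mul, inv_mem_iff] at h1
    exact hyv (mem_center_iff.1 h1 v).symm
  · exact hxu (commute_of_zpow_mul hp hx h2 hyu.inv_left (mem_center_iff.1 h1 u).symm)

/-- Two elements that commute only modulo the centre. -/
theorem nc_of_heis (f : A →* K) (hk : f.ker ≤ center A) {p : ℕ} (hp : p.Prime) (hp2 : p ≠ 2)
    {x y : A} (hx : f x ^ p = 1) (hy : f y ^ p = 1) (hc : Commute (f x) (f y))
    (hn : ¬ Commute x y) : NC K := by
  refine nc_of_not_mem hp hp2 hx hy hc (fun e => hn (mem_center_iff.1 (hk e) y).symm) ?_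
  rintro ⟨k, e⟩
  have h1 : x ^ k * y⁻¹ ∈ center A := hk (by simpa [mul_inv_eq_one] using e)
  have h2 : Commute x (x ^ k * y⁻¹) := mem_center_iff.1 h1 x
  exact hn (by simpa using (((Commute.refl x).zpow_right k).inv_right.mul_right h2).inv_right)

theorem not_commute_of_cube {a b : A} (ha : a * a = 1) (hb : b * b = 1) (h : (a * b) ^ 3 = 1)
    (hne : a ≠ b) : ¬ Commute (a * b) a := fun e => by
  have h1 : Commute a b := by simpa using (Commute.refl a).inv_right.mul_right e.symm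
  have h2 : (a * b) ^ 2 = 1 := by rw [h1.mul_pow, pow_two, pow_two, ha, hb, one_mul]
  rw [pow_succ, h2, one_mul] at h
  exact hne ((eq_inv_of_mul_eq_one_left h).trans (inv_eq_of_mul_eq_one_right hb))

/-- Two commuting symmetric groups of degree three, in a central quotient. -/
theorem nc_of_invols (f : A →* K) (hk : f.ker ≤ center A) {a b c d : A} (ha : a * a = 1)
    (hb : b * b = 1) (hc : c * c = 1) (hd : d * d = 1) (hab : (a * b) ^ 3 = 1)
    (hcd : (c * d) ^ 3 = 1) (h1 : Commute a c) (h2 : Commute a d) (h3 : Commute b c)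
    (h4 : Commute b d) (n1 : a ≠ b) (n2 : c ≠ d) : NC K :=
  nc_of_pair f hk Nat.prime_three (by norm_num) hab hcd
    ((h1.mul_right h2).mul_left (h3.mul_right h4)) (h1.mul_right h2).symm
    (not_commute_of_cube ha hb hab n1) (not_commute_of_cube hc hd hcd n2)

/-- `u` commutes with `x` but not with `y`. -/
theorem nc_of_sep {B : Type*} [Group B] (ι : K →* B) {p : ℕ} (hp : p.Prime) (hp2 : p ≠ 2) {x y : K}
    (hx : x ^ p = 1) (hy : y ^ p = 1) (hc : Commute x y) (hx1 : x ≠ 1) {u : B}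
    (h1 : Commute (ι x) u) (h2 : ¬ Commute (ι y) u) : NC K :=
  nc_of_not_mem hp hp2 hx hy hc hx1 fun ⟨k, e⟩ => h2 (by
    rw [← e, map_zpow]; exact h1.zpow_left k)

/-- Both elements are inverted by `t`, so that they survive in a central quotient. -/
theorem nc_of_inverted (f : A →* K) (hk : f.ker ≤ center A) {p : ℕ} (hp : p.Prime) (hp2 : p ≠ 2)
    {x y t : A} (hx : x ^ p = 1) (hy : y ^ p = 1) (hc : Commute x y) (h1 : t * x * t⁻¹ = x⁻¹)
    (h2 : t * y * t⁻¹ = y⁻¹) (hx1 : x ≠ 1) (hxy : y ∉ zpowers x) : NC K := by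
  have key : ∀ {z : A}, f z = 1 → z ^ p = 1 → t * z * t⁻¹ = z⁻¹ → z = 1 := fun hz h3 h4 => by
    rw [mem_center_iff.1 (hk hz) t, mul_inv_cancel_right] at h4
    exact eq_one_of_sq_of_pow_odd (hp.odd_of_ne_two hp2) h3
      (by rw [pow_two, mul_eq_one_iff_eq_inv, ← h4])
  refine nc_of_not_mem hp hp2 (x := f x) (y := f y) (by rw [← map_pow, hx, map_one])
    (by rw [← map_pow, hy, map_one]) (hc.map f) (fun e => hx1 (key e hx h1)) ?_
  rintro ⟨k, e⟩
  have h3 := (hc.zpow_left k).inv_right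
  refine hxy ⟨k, mul_inv_eq_one.1 (key (by simpa [mul_inv_eq_one] using e) ?_ ?_)⟩
  · rw [h3.mul_pow, inv_pow, hy, ← zpow_natCast, ← zpow_mul, mul_comm k, zpow_mul, zpow_natCast, hx]
    simp
  · have : t * (x ^ k * y⁻¹) * t⁻¹ = (t * x * t⁻¹) ^ k * (t * y * t⁻¹)⁻¹ := by
      rw [conj_zpow]; group
    rw [this, h1, h2, h3.eq]
    simp

theorem cube_of_conj {a b : A} (ha : a * a = 1) (hb : b * b = 1)
    (h : a * b * a⁻¹ = b * a * b⁻¹) : (a * b) ^ 3 = 1 := by
  rw [inv_eq_of_mul_eq_one_right ha, inv_eq_of_mul_eq_one_right hb] at h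
  calc (a * b) ^ 3 = (a * b * a) * (b * a * b) := by
        simp only [pow_succ, pow_zero, one_mul, mul_assoc]
    _ = b * (a * (b * b) * a) * b := by rw [h]; simp only [mul_assoc]
    _ = 1 := by rw [hb, mul_one, ha, mul_one, hb]

theorem ab_eq_of_cube {a b : A} (ha : a * a = 1) (hb : b * b = 1) (h : (a * b) ^ 3 = 1) :
    Abelianization.of a = Abelianization.of b := by
  by_contra e
  refine not_commute_of_cube (a := Abelianization.of a) (b := Abelianization.of b) ?_ ?_ ?_ e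
    (Commute.all _ _)
  · rw [← map_mul, ha, map_one]
  · rw [← map_mul, hb, map_one]
  · rw [← map_mul, ← map_pow, h, map_one]

theorem mul_mem_commutator_of_ab {a b : A} (ha : a * a = 1)
    (h : Abelianization.of a = Abelianization.of b) : a * b ∈ _root_.commutator A := by
  rw [← Abelianization.ker_of, MonoidHom.mem_ker, map_mul, ← h, ← map_mul, ha, map_one]

theorem Big.nc (h : Big K) : NC K := by
  obtain ⟨p, x₁, x₂, x₃, t₁, t₂, t₃, hp, hp2, a1, a2, a3, b1, b2, b3, c1, c2, c3, d1, d2, d3, e1, e2,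
    e3⟩ := h
  have key : ∀ {x t : K}, x ^ p = 1 → x ≠ 1 → t * x * t⁻¹ = x⁻¹ → ¬ Commute x t := by
    intro x t h1 h2 h3 h4
    rw [← h4.eq, mul_inv_cancel_right] at h3
    exact h2 (eq_one_of_sq_of_pow_odd (hp.odd_of_ne_two hp2) h1
      (by rw [pow_two, mul_eq_one_iff_eq_inv, ← h3]))
  exact nc_of_pair (MonoidHom.id K) (by rw [MonoidHom.ker_id]; exact bot_le) hp hp2 a1 a2 c1 e1.symm
    (key a1 b1 d1) (key a2 b2 d2)

/-- `p ^ (k + 1)` divides the order, and `p ^ k` kills all `p`-elements. -/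
theorem nc_of_exponent [Finite K] {p k : ℕ} (hp : p.Prime) (hp2 : p ≠ 2)
    (hd : p ^ (k + 1) ∣ Nat.card K) (h : ∀ g : K, g ^ p ^ (k + 1) = 1 → g ^ p ^ k = 1) : NC K := by
  haveI := Fact.mk hp
  obtain ⟨P, hP⟩ := Sylow.exists_subgroup_card_pow_prime p hd
  refine ⟨p, hp, hp2, P, IsPGroup.of_card hP, fun e => ?_⟩
  obtain ⟨g, hg⟩ := IsCyclic.exists_ofOrder_eq_natCard (α := P)
  have h1 : orderOf (g : K) = p ^ (k + 1) := by rw [orderOf_coe, hg, hP]
  have h2 := orderOf_dvd_of_pow_eq_one (h g (h1 ▸ pow_orderOf_eq_one _))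
  rw [h1, Nat.pow_dvd_pow_iff_le_right hp.one_lt] at h2
  omega

/-- Unipotent matrices have small order. -/
theorem nc_of_matrix [Finite A] {ι F : Type*} [Fintype ι] [DecidableEq ι] [Field F] {p k : ℕ}
    (hp : p.Prime) (hp2 : p ≠ 2) [CharP F p] (ρ : A →* Matrix ι ι F) (hρ : Function.Injective ρ)
    (f : A →* K) (hf : Function.Surjective f) (hd : p ^ (k + 1) ∣ Nat.card K)
    (hn : Fintype.card ι ≤ p ^ k) : NC K := by
  haveI := Fact.mk hp
  haveI := Finite.of_surjective f hf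
  refine nc_of_exponent hp hp2 hd fun g hg => ?_
  have h1 : IsPGroup p (zpowers g) := by
    rintro ⟨_, j, rfl⟩
    refine ⟨k + 1, Subtype.ext ?_⟩
    simp only [SubgroupClass.coe_pow, OneMemClass.coe_one]
    rw [← zpow_natCast, ← zpow_mul, mul_comm, zpow_mul, zpow_natCast, hg, one_zpow]
  obtain ⟨Q, q1, q2⟩ := FT.R2.exists_isPGroup_map_eq f hf h1
  obtain ⟨a, ha, rfl⟩ : g ∈ Q.map f := q2 ▸ mem_zpowers g
  obtain ⟨j, hj⟩ := q1 ⟨a, ha⟩
  have h2 : a ^ p ^ j = 1 := by simpa using congrArg Subtype.val hj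
  rcases isEmpty_or_nonempty ι with _ | _
  · rw [hρ (Subsingleton.elim (ρ a) (ρ 1)), map_one, one_pow]
  have h3 : IsNilpotent (ρ a - 1) := ⟨p ^ j, by
    rw [sub_pow_char_pow_of_commute _ _ (Commute.one_right _), ← map_pow, h2, map_one, one_pow,
      sub_self]⟩
  have h4 : (ρ a - 1) ^ Fintype.card ι = 0 := by
    have := Matrix.aeval_self_charpoly (ρ a - 1)
    rwa [sub_eq_zero.1 (Matrix.isNilpotent_charpoly_sub_pow_of_isNilpotent h3).eq_zero, map_pow,
      Polynomial.aeval_X] at this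
  have h5 : (ρ a - 1) ^ p ^ k = 0 := pow_eq_zero_of_le hn h4
  rw [sub_pow_char_pow_of_commute _ _ (Commute.one_right _), one_pow, sub_eq_zero, ← map_pow,
    ← map_one ρ] at h5
  rw [← map_pow, hρ h5, map_one]

theorem ordData_dvd {p g N d : ℕ} (hp : p.Prime) (h : UL.OrdData p g N d) {k : ℕ} (hk : k ≤ N) :
    p ^ k ∣ g := by
  obtain ⟨q, c, A, e, he, rfl, hc, h1, -⟩ := h
  refine Nat.Coprime.dvd_of_dvd_mul_left (m := c)
    (Nat.Coprime.pow_left k ((Nat.Prime.coprime_iff_not_dvd hp).2 hc)) ?_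
  rw [h1, ← pow_mul]
  exact (pow_dvd_pow p (by nlinarith : k ≤ e * N)).mul_right _

end Cfsg.Agent.QT
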