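import Mathlib
import Cfsg.Agent.QT.NC
import Cfsg.Agent.QT.OutC
import Cfsg.Agent.Class.Orth.Std
import Cfsg.Agent.Class.Sp.Basic
import Cfsg.Agent.Class.SmallIso

/-!
Noncyclic Sylow subgroups of odd order in the classical groups.
-/

set_option autoImplicit false

namespace Cfsg.Agent.QT

open Subgroup Cfsg Matrix

section Monomial

variable {ι F A K : Type*} [Fintype ι] [DecidableEq ι] [Field F] [Group A] [Group K]

theorem perm_mul_diagonal (σ : Equiv.Perm ι) (d : ι → F) :
    σ.permMatrix F * diagonal d = diagonal (fun i => d (σ i)) * σ.permMatrix F := by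
  ext i j
  by_cases h : σ i = j <;> simp [PEquiv.toMatrix_apply, h]

theorem commute_diagonal_perm {σ : Equiv.Perm ι} {d : ι → F} :
    Commute (diagonal d) (σ.permMatrix F) ↔ ∀ i, d (σ i) = d i := by
  refine ⟨fun h i => ?_, fun h => ?_⟩
  · have := congrFun (congrFun (h.eq.trans (perm_mul_diagonal σ d)) i) (σ i)
    simpa [PEquiv.toMatrix_apply] using this.symm
  · rw [Commute, SemiconjBy, perm_mul_diagonal, funext h]

/-- A group of matrices that contains the permutation matrices and the diagonal matrices of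
determinant one and order `r`. -/
theorem nc_of_monomial (ρ : A →* Matrix ι ι F) (hρ : Function.Injective ρ) (f : A →* K)
    (hk : f.ker = center A) {r : ℕ} (hr : r.Prime) (hr2 : r ≠ 2) {l : F} (hl : l ^ r = 1)
    (hl1 : l ≠ 1) {i j k : ι} (hij : i ≠ j) (hik : i ≠ k) (hjk : j ≠ k)
    (hd : ∀ d : ι → F, (∀ a, d a ^ r = 1) → ∏ a, d a = 1 → ∃ g, ρ g = diagonal d)
    (hp : ∀ σ : Equiv.Perm ι, ∃ g, ρ g = σ.permMatrix F) : NC K := by
  have hl0 : l ≠ 0 := fun e => by simp [e, hr.ne_zero] at hl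
  have hl2 : l⁻¹ ≠ l := fun e => hl1 (by
    obtain ⟨n, hn⟩ := hr.odd_of_ne_two hr2
    have h2 : l ^ 2 = 1 := by rw [pow_two]; nth_rw 2 [← e]; exact mul_inv_cancel₀ hl0
    rwa [hn, pow_succ, pow_mul, h2, one_pow, one_mul] at hl)
  have hc : ∀ {g h : A}, Commute g h ↔ Commute (ρ g) (ρ h) := fun {g h} =>
    ⟨fun e => e.map ρ, fun e => hρ (by rw [map_mul, map_mul, e.eq])⟩
  have hE : ∀ {a b : ι}, a ≠ b → ∃ g, g ^ r = 1 ∧
      ρ g = diagonal fun c => if c = a then l else if c = b then l⁻¹ else 1 := fun {a b} hab => by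
    have h1 : ∀ c, (if c = a then l else if c = b then l⁻¹ else 1) ^ r = 1 := fun c => by
      split_ifs <;> simp [hl]
    obtain ⟨g, hg⟩ := hd _ h1 (det_diagonal.symm.trans (SpecialLinearGroup.diag2n hab l hl0).2)
    exact ⟨g, hρ (by rw [map_pow, hg, diagonal_pow, map_one, ← diagonal_one]; exact congrArg _ (funext h1)), hg⟩
  obtain ⟨x, x1, x2⟩ := hE hij
  obtain ⟨y, y1, y2⟩ := hE hik
  obtain ⟨z, z1, z2⟩ := hE hjk
  have hyz := map_mul ρ y z
  rw [y2, z2, diagonal_mul_diagonal] at hyz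
  set d : ι → F := fun c => (if c = i then l else if c = k then l⁻¹ else 1) *
    (if c = j then l else if c = k then l⁻¹ else 1) with hd'
  have di : d i = l := by simp [hd', hij, hik]
  by_cases h : ∀ a, d a = l
  · obtain ⟨u, hu⟩ := hp (Equiv.swap i k * Equiv.swap i j)
    have h3 : l⁻¹ * l⁻¹ = l := by simpa [hd', hik.symm, hjk.symm] using h k
    have hz : y * z ∈ f.ker := hk ▸ mem_center_iff.2 fun g => (hc.2 (by
      rw [hyz, funext h]; exact (Matrix.scalar_commute l (Commute.all l) _))).symm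
    have h4 : u * x = y * z * x * u := hρ (by
      rw [map_mul, map_mul, map_mul, hyz, hu, x2, perm_mul_diagonal, diagonal_mul_diagonal]
      congr 2
      funext a
      rw [h a]
      by_cases hi : a = i
      · subst hi
        simp [Equiv.swap_apply_of_ne_of_ne hij.symm hjk, hij.symm]
        field_simp at h3 ⊢
        exact h3
      by_cases hj : a = j
      · subst hj
        simp [hik.symm, hjk.symm, hij.symm, hl0]
      by_cases hk : a = k
      · subst hk
        simp [Equiv.swap_apply_of_ne_of_ne hik.symm hjk.symm, hik.symm, hjk.symm]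
      · exact absurd (by simpa [hd', hi, hj, hk] using (h a).symm) hl1)
    have h5 : r = 3 := by
      have := (orderOf_eq_prime (hp := ⟨hr⟩) hl hl1).symm.trans
        (orderOf_eq_prime (hp := ⟨Nat.prime_three⟩) (x := l) (by field_simp at h3; exact h3.symm) hl1)
      exact this
    refine nc_of_heis f hk.le hr hr2 (x := x) (y := u) (by rw [← map_pow, x1, map_one]) ?_ ?_ ?_
    · have h6 : (Equiv.swap i k * Equiv.swap i j) ^ 3 = 1 :=
        (Equiv.Perm.isThreeCycle_swap_mul_swap_same hik hij hjk.symm).orderOf ▸ pow_orderOf_eq_one _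
      rw [← map_pow, hρ (a₁ := u ^ r) (a₂ := 1) ?_, map_one]
      rw [map_pow, hu, h5, map_one, ← permMatrix_one, ← h6]
      simp only [pow_succ, pow_zero, one_mul, permMatrix_mul, Matrix.mul_assoc]
    · have := congrArg f h4
      rw [map_mul, map_mul, map_mul, hz, one_mul] at this
      exact this.symm
    · rw [hc, x2, hu, commute_diagonal_perm]
      intro e
      simpa [Equiv.swap_apply_of_ne_of_ne hij.symm hjk, hij.symm, hl2] using e i
  · obtain ⟨a, ha⟩ := not_forall.1 h
    obtain ⟨u, hu⟩ := hp (Equiv.swap i j)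
    obtain ⟨v, hv⟩ := hp (Equiv.swap i a)
    have c1 : ∀ {g g' : A} {e e' : ι → F}, ρ g = diagonal e → ρ g' = diagonal e' → Commute g g' :=
      fun h h' => hc.2 (h ▸ h' ▸ commute_diagonal _ _)
    refine nc_of_pair f hk.le hr hr2 (x := x) (y := y * z) (u := u) (v := v) x1
      (by rw [(c1 y2 z2).mul_pow, y1, z1, one_mul]) (c1 x2 hyz) ?_ ?_ ?_
    · rw [hc, hyz, hu, commute_diagonal_perm]
      intro b
      rcases eq_or_ne b i with rfl | hi
      · simp [hd', hij, hij.symm, hik, hjk]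
      rcases eq_or_ne b j with rfl | hj
      · simp [hd', hij, hij.symm, hik, hjk]
      · rw [Equiv.swap_apply_of_ne_of_ne hi hj]
    · rw [hc, x2, hu, commute_diagonal_perm]
      intro e
      simpa [hij.symm, hl2] using e i
    · rw [hc, hyz, hv, commute_diagonal_perm]
      intro e
      exact ha (by simpa [di] using e i)

end Monomial

section Fam

variable {F : Type*} [Field F] [Fintype F]

theorem exists_root {m : ℕ} (hm : m ∣ Fintype.card F - 1) (h1 : m ≠ 1) (h2 : Odd m) :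
    ∃ (r : ℕ) (l : F), r.Prime ∧ r ≠ 2 ∧ r ∣ m ∧ l ^ r = 1 ∧ l ≠ 1 := by
  classical
  obtain ⟨r, hr, hrm⟩ := Nat.exists_prime_and_dvd h1
  haveI := Fact.mk hr
  obtain ⟨l, hl⟩ := exists_prime_orderOf_dvd_card (G := Fˣ) r
    (by rw [Fintype.card_units]; exact hrm.trans hm)
  refine ⟨r, l, hr, fun e => ?_, hrm, ?_, fun e => hr.ne_one ?_⟩
  · exact Nat.not_even_iff_odd.2 h2 (even_iff_two_dvd.2 (e ▸ hrm))
  · rw [← Units.val_pow_eq_pow_val, ← hl, pow_orderOf_eq_one, Units.val_one]
  · rw [← hl, Units.val_eq_one.1 e, orderOf_one]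

theorem slToMat_injective (n : ℕ) (F : Type*) [Field F] : Function.Injective (slToMat n F) :=
  fun _ _ e => Subtype.ext e

omit [Fintype F] in
theorem det_perm_two [CharP F 2] {n : ℕ} (σ : Equiv.Perm (Fin n)) : (σ.permMatrix F).det = 1 := by
  rw [det_permutation]
  rcases Int.units_eq_one_or (Equiv.Perm.sign σ) with h | h <;> simp [h, CharTwo.neg_eq]

theorem add_two_le_pow {p : ℕ} (hp : p.Prime) (hp2 : p ≠ 2) {n : ℕ} (hn : 1 ≤ n) : n + 2 ≤ p ^ n := by
  refine le_trans ?_ (Nat.pow_le_pow_left (show 3 ≤ p from hp.two_le.lt_of_ne' hp2) n)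
  induction n, hn using Nat.le_induction with
  | base => norm_num
  | succ n _ ih => rw [pow_succ]; omega

theorem two_mul_lt_pow {p : ℕ} (hp : p.Prime) (hp2 : p ≠ 2) (n : ℕ) : 2 * n + 1 ≤ p ^ n := by
  refine le_trans ?_ (Nat.pow_le_pow_left (show 3 ≤ p from hp.two_le.lt_of_ne' hp2) n)
  induction n with
  | zero => norm_num
  | succ n ih => rw [pow_succ]; omega

theorem nc_PSL_odd {p : ℕ} (hp : p.Prime) (hp2 : p ≠ 2) [CharP F p] {n : ℕ} (hn : 3 ≤ n) :
    NC (ProjectiveSpecialLinearGroup (Fin n) F) := by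
  obtain ⟨n, rfl⟩ : ∃ k, n = k + 2 := ⟨n - 2, by omega⟩
  exact nc_of_matrix (k := n) hp hp2 _ (slToMat_injective _ F) _ (QuotientGroup.mk'_surjective _)
    (ordData_dvd hp (UL.ordData_PSL hp n) (by rw [Finset.sum_range_succ]; omega))
    (by rw [Fintype.card_fin]; exact add_two_le_pow hp hp2 (by omega))

theorem nc_PSL_two_odd {p e : ℕ} (hp : p.Prime) (hp2 : p ≠ 2) [CharP F p]
    (hF : Fintype.card F = p ^ e) (he : 2 ≤ e) : NC (ProjectiveSpecialLinearGroup (Fin 2) F) := by
  refine nc_of_matrix (k := 1) hp hp2 _ (slToMat_injective _ F) _ (QuotientGroup.mk'_surjective _)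
    ?_ (by simpa using hp.two_le)
  refine Nat.Coprime.dvd_of_dvd_mul_left (m := Nat.gcd 2 (Fintype.card F - 1)) ?_ ?_
  · exact Nat.Coprime.pow_left _ (Nat.Coprime.coprime_dvd_right (Nat.gcd_dvd_left _ _)
      ((Nat.coprime_primes hp Nat.prime_two).2 hp2))
  · rw [Class.gcd_mul_card_PSL2, hF]
    exact (pow_dvd_pow p he).mul_right _

theorem nc_PSL_three [CharP F 2] (h : Fintype.card F ≠ 2) :
    NC (ProjectiveSpecialLinearGroup (Fin 3) F) := by
  obtain ⟨e, he, hq⟩ := UL.card_eq_pow F 2 Nat.prime_two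
  have h1 : 1 < Fintype.card F := Fintype.one_lt_card
  obtain ⟨r, l, hr, hr2, -, h2, h3⟩ := exists_root (F := F) dvd_rfl (by omega)
    (Nat.Even.sub_odd h1.le (hq ▸ Nat.even_pow.2 ⟨even_two, by omega⟩) odd_one)
  exact nc_of_monomial _ (slToMat_injective 3 F) _ (QuotientGroup.ker_mk' _) hr hr2 h2 h3
    (i := 0) (j := 1) (k := 2) (by decide) (by decide) (by decide)
    (fun d _ hd => ⟨⟨diagonal d, det_diagonal.trans hd⟩, rfl⟩) fun σ => ⟨⟨_, det_perm_two σ⟩, rfl⟩

omit [Fintype F] in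
theorem nc_PSL_even [CharP F 2] {n : ℕ} (hn : 4 ≤ n) :
    NC (ProjectiveSpecialLinearGroup (Fin n) F) := by
  have h2 : (1 : F) + 1 = 0 := CharTwo.add_self_eq_zero 1
  have sq : ∀ {i j : Fin n} (h : i ≠ j), SpecialLinearGroup.transvection h (1 : F) *
      SpecialLinearGroup.transvection h 1 = 1 := fun h => by
    rw [← SpecialLinearGroup.transvection_add, h2, SpecialLinearGroup.transvection_coeff_zero]
  have cu : ∀ {i j : Fin n} (h : i ≠ j), (SpecialLinearGroup.transvection h (1 : F) *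
      SpecialLinearGroup.transvection h.symm 1) ^ 3 = 1 := fun {i j} h => by
    refine cube_of_conj (sq h) (sq h.symm) ?_
    rw [inv_eq_of_mul_eq_one_right (sq h), inv_eq_of_mul_eq_one_right (sq h.symm)]
    refine Subtype.ext ?_
    change ((1 + single i j 1) * (1 + single j i 1) * (1 + single i j 1) : Matrix _ _ F) =
      (1 + single j i 1) * (1 + single i j 1) * (1 + single j i 1)
    simp only [mul_add, add_mul, mul_one, one_mul, single_mul_single_same, single_mul_single_of_ne _ _ _ _ h,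
      single_mul_single_of_ne _ _ _ _ h.symm, add_zero, zero_mul]
    have := fun a b : Fin n => show single a b (1 : F) + single a b 1 = 0 by
      rw [← single_add, h2, single_zero]
    linear_combination (norm := abel) this i j - this j i
  have co : ∀ {i j k l : Fin n} (h : i ≠ j) (h' : k ≠ l), j ≠ k → l ≠ i →
      Commute (SpecialLinearGroup.transvection h (1 : F)) (SpecialLinearGroup.transvection h' 1) :=
    fun {i j k l} h h' h1 h3 => Subtype.ext (by
      change ((1 + single i j 1) * (1 + single k l 1) : Matrix _ _ F) =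
        (1 + single k l 1) * (1 + single i j 1)
      simp only [mul_add, add_mul, mul_one, one_mul, single_mul_single_of_ne _ _ _ _ h1, single_mul_single_of_ne _ _ _ _ h3]
      abel)
  have ne : ∀ {i j : Fin n} (h : i ≠ j), SpecialLinearGroup.transvection h (1 : F) ≠
      SpecialLinearGroup.transvection h.symm 1 := fun {i j} h e => by
    simpa [SpecialLinearGroup.transvection_coe, h, h.symm] using congrArg (fun g => g.1 i j) e
  have h01 : (⟨0, by omega⟩ : Fin n) ≠ ⟨1, by omega⟩ := by simp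
  have h23 : (⟨2, by omega⟩ : Fin n) ≠ ⟨3, by omega⟩ := by simp
  exact nc_of_invols _ (QuotientGroup.ker_mk' _).le (sq h01) (sq h01.symm) (sq h23) (sq h23.symm)
    (cu h01) (cu h23) (co _ _ (by simp) (by simp)) (co _ _ (by simp) (by simp))
    (co _ _ (by simp) (by simp)) (co _ _ (by simp) (by simp)) (ne h01) (ne h23)

theorem nc_PSU {q n : ℕ} (hF : Fintype.card F = q ^ 2) (hn : 3 ≤ n) : NC (PSU n F q) := by
  obtain ⟨p, ⟨hp⟩, _, -⟩ := exists_char F
  have hρ : Function.Injective ((slToMat n F).comp (SU n F q).subtype) :=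
    (slToMat_injective n F).comp Subtype.val_injective
  by_cases hp2 : p = 2
  · subst hp2
    obtain ⟨e, he, rfl⟩ := UL.root_eq_pow Nat.prime_two two_ne_zero hF
    obtain ⟨r, l, hr, hr2, ⟨c, hc⟩, h2, h3⟩ := exists_root (F := F) (m := 2 ^ e + 1)
      (by rw [hF]; exact ⟨2 ^ e - 1, Nat.sq_sub_sq _ 1⟩) (by simp)
      ((Nat.even_pow.2 ⟨even_two, by omega⟩).add_one)
    refine nc_of_monomial _ hρ _ (QuotientGroup.ker_mk' _) hr hr2 h2 h3
      (i := ⟨0, by omega⟩) (j := ⟨1, by omega⟩) (k := ⟨2, by omega⟩) (by simp) (by simp) (by simp)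
      (fun d h4 hd => ⟨⟨⟨diagonal d, det_diagonal.trans hd⟩, fun u v => ?_⟩, rfl⟩)
      fun σ => ⟨⟨⟨_, det_perm_two σ⟩, fun u v => ?_⟩, rfl⟩
    · change hermForm n F _ (diagonal d *ᵥ u) (diagonal d *ᵥ v) = _
      refine Finset.sum_congr rfl fun a _ => ?_
      have : d a ^ (2 ^ e + 1) = 1 := by rw [hc, pow_mul, h4, one_pow]
      rw [mulVec_diagonal, mulVec_diagonal, mul_pow]
      linear_combination (u a * v a ^ 2 ^ e) * this
    · change hermForm n F _ (σ.permMatrix F *ᵥ u) (σ.permMatrix F *ᵥ v) = _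
      rw [permMatrix_mulVec, permMatrix_mulVec]
      exact Equiv.sum_comp σ fun a => u a * v a ^ 2 ^ e
  · obtain ⟨n, rfl⟩ : ∃ k, n = k + 2 := ⟨n - 2, by omega⟩
    exact nc_of_matrix (k := n) hp hp2 _ hρ _ (QuotientGroup.mk'_surjective _)
      (ordData_dvd hp (UL.ordData_PSU hp hF n) (by rw [Finset.sum_range_succ]; omega))
      (by rw [Fintype.card_fin]; exact add_two_le_pow hp hp2 (by omega))

open Class.Sp in
theorem nc_PSp {m : ℕ} (hm : 2 ≤ m) : NC (PSp m F) := by
  obtain ⟨p, ⟨hp⟩, _, -⟩ := exists_char F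
  by_cases hp2 : p = 2
  · subst hp2
    have sq : ∀ v : Fin m ⊕ Fin m → F, tv v (1 : F) * tv v 1 = 1 := fun v => by
      rw [tv_mul_tv, CharTwo.add_self_eq_zero, tv_zero]
    have cu : ∀ i : Fin m, (tv (Pi.single (.inl i) 1) (1 : F) * tv (Pi.single (.inr i) 1) 1) ^ 3 = 1 :=
      fun i => cube_of_conj (sq _) (sq _) (by
        rw [conj_tv, conj_tv, tv_smul, tv_smul, form_single_inl_right, form_single_inr_right]
        simp [CharTwo.neg_eq, add_comm])
    have ne : ∀ i : Fin m, tv (Pi.single (.inl i) 1) (1 : F) ≠ tv (Pi.single (.inr i) 1) 1 :=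
      fun i e => by
        have := congrArg (fun g => (g • (Pi.single (.inl i) 1 : Fin m ⊕ Fin m → F)) (.inr i)) e
        simp [tv_smul, form_single_inl_right, form_single_inr_right] at this
    have h01 : (⟨0, by omega⟩ : Fin m) ≠ ⟨1, by omega⟩ := by simp
    exact nc_of_invols _ (QuotientGroup.ker_mk' _).le (sq _) (sq _) (sq _) (sq _)
      (cu ⟨0, by omega⟩) (cu ⟨1, by omega⟩) (tv_commute (by simp [form_single_inl_right]) _ _)
      (tv_commute (by simp [form_single_inr_right]) _ _)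
      (tv_commute (by simp [form_single_inl_right]) _ _)
      (tv_commute (by simp [form_single_inr_right]) _ _) (ne _) (ne _)
  · exact nc_of_matrix (k := m) hp hp2 (Submonoid.subtype _) Subtype.val_injective _
      (QuotientGroup.mk'_surjective _)
      (ordData_dvd hp (UL.ordData_PSp hp (by omega)) (by nlinarith))
      (by have := two_mul_lt_pow hp hp2 m; simp; omega)

end Fam

section Orth

open Class.Orth QuadraticMap

theorem nc_commutator_quot {O : Type*} [Group O] {a b c d w : O} (ha : a * a = 1) (hb : b * b = 1)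
    (hc : c * c = 1) (hd : d * d = 1) (hw : w * w = 1) (hab : (a * b) ^ 3 = 1)
    (hcd : (c * d) ^ 3 = 1) (haw : (a * w) ^ 3 = 1) (hcw : (c * w) ^ 3 = 1) (h1 : Commute a c)
    (h2 : Commute a d) (h3 : Commute b c) (h4 : Commute b d) (n1 : a ≠ b) (n2 : c ≠ d) :
    NC (commutator O ⧸ center (commutator O)) := by
  have inv : ∀ {a b : O}, a * a = 1 → b * b = 1 → a * (a * b) * a⁻¹ = (a * b)⁻¹ := fun ha hb => by
    rw [← mul_assoc, ha, one_mul, _root_.mul_inv_rev, inv_eq_of_mul_eq_one_right hb]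
  refine nc_of_inverted _ (QuotientGroup.ker_mk' _).le Nat.prime_three (by norm_num)
    (x := ⟨a * b, mul_mem_commutator_of_ab ha (ab_eq_of_cube ha hb hab)⟩)
    (y := ⟨c * d, mul_mem_commutator_of_ab hc (ab_eq_of_cube hc hd hcd)⟩)
    (t := ⟨a * c, mul_mem_commutator_of_ab ha
      ((ab_eq_of_cube ha hw haw).trans (ab_eq_of_cube hc hw hcw).symm)⟩)
    (Subtype.ext hab) (Subtype.ext hcd)
    (Subtype.ext ((h1.mul_right h2).mul_left (h3.mul_right h4))) (Subtype.ext ?_) (Subtype.ext ?_)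
    (fun e => n1 ((eq_inv_of_mul_eq_one_left (congrArg Subtype.val e)).trans
      (inv_eq_of_mul_eq_one_right hb))) ?_
  · change a * c * (a * b) * (a * c)⁻¹ = (a * b)⁻¹
    rw [← inv ha hb, mul_assoc a c, ← (h1.mul_left h3).eq]
    group
  · change a * c * (c * d) * (a * c)⁻¹ = (c * d)⁻¹
    have : a * c * (c * d) * (a * c)⁻¹ = a * (c * (c * d) * c⁻¹) * a⁻¹ := by group
    rw [this, inv hc hd, (h1.mul_right h2).inv_right.eq, mul_inv_cancel_right]
  · rintro ⟨k, e⟩
    have e' : (a * b) ^ k = c * d := congrArg Subtype.val e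
    exact not_commute_of_cube hc hd hcd n2 (e' ▸ (h1.mul_left h3).zpow_left k)

variable {F V : Type*} [Field F] [CharP F 2] [AddCommGroup V] [Module F V] {Q : QuadraticForm F V}

theorem refl_cube {a b : V} (ha : Q a = 1) (hb : Q b = 1) (h : polar Q a b = 1) :
    (refl Q a * refl Q b) ^ 3 = 1 :=
  cube_of_conj (refl_mul_self a) (refl_mul_self b) (by
    rw [conj_refl, conj_refl, refl_apply, refl_apply, ha, hb, polar_comm Q b, h, ← refl_neg]
    simp)

theorem refl_commute {a b : V} (h : polar Q a b = 0) : Commute (refl Q a) (refl Q b) := by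
  have := conj_refl (refl Q b) a
  rw [refl_apply_of_polar_eq_zero h, mul_inv_eq_iff_eq_mul] at this
  exact this.symm

theorem refl_ne {a b : V} (ha : Q a = 1) (hb : Q b = 1) (h : polar Q a b = 1) :
    refl Q a ≠ refl Q b := fun e => by
  have h1 := congrArg (fun g : OG Q => g.1 a) e
  simp only [refl_apply, ha, hb, h, polar_self', CharTwo.two_eq_zero, inv_one, zero_mul, mul_zero,
    zero_smul, sub_zero, mul_one, one_smul] at h1
  rw [sub_eq_self.1 h1.symm, QuadraticMap.map_zero] at hb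
  exact zero_ne_one hb

theorem nc_OG (e f : Fin 3 → V) (he : ∀ i, Q (e i) = 0) (hf : ∀ i, Q (f i) = 0)
    (hee : ∀ i j, polar Q (e i) (e j) = 0) (hff : ∀ i j, polar Q (f i) (f j) = 0)
    (hef : ∀ i j, polar Q (e i) (f j) = if i = j then 1 else 0) :
    NC (commutator (OG Q) ⧸ center (commutator (OG Q))) := by
  have hfe : ∀ i j, polar Q (f i) (e j) = if j = i then 1 else 0 := fun i j => by
    rw [polar_comm, hef]
  have h2 : (1 : F) + 1 = 0 := CharTwo.add_self_eq_zero 1
  refine nc_commutator_quot (refl_mul_self (e 0 + f 0)) (refl_mul_self (e 0 + e 1 + f 1))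
    (refl_mul_self (e 1 + f 1)) (refl_mul_self (e 0 + f 0 + e 1))
    (refl_mul_self (e 0 + e 1 + e 2 + f 2)) (refl_cube ?_ ?_ ?_) (refl_cube ?_ ?_ ?_)
    (refl_cube ?_ ?_ ?_) (refl_cube ?_ ?_ ?_) (refl_commute ?_) (refl_commute ?_) (refl_commute ?_)
    (refl_commute ?_) (refl_ne ?_ ?_ ?_) (refl_ne ?_ ?_ ?_) <;>
  simp [Q_add, polar_add_left, polar_add_right, he, hf, hee, hff, hef, hfe, h2,
    CharTwo.two_eq_zero]

end Orth

section OrthFam

open Class.Orth

variable {F : Type*} [Field F] [Fintype F]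

theorem nc_POmega_odd {ι : Type} [Fintype ι] [DecidableEq ι] {p k : ℕ} (hp : p.Prime) (hp2 : p ≠ 2)
    [CharP F p] (Q : (ι → F) → F) (hd : p ^ (k + 1) ∣ Nat.card (POmega F Q))
    (hn : Fintype.card ι ≤ p ^ k) : NC (POmega F Q) :=
  nc_of_matrix hp hp2 (((Units.coeHom _).comp (Subgroup.subtype _)).comp (Subgroup.subtype _))
    ((Units.val_injective.comp Subtype.val_injective).comp Subtype.val_injective) _
    (QuotientGroup.mk'_surjective _) hd hn

theorem nc_POmegaOdd (hodd : Odd (Fintype.card F)) {m : ℕ} (hm : 3 ≤ m) :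
    NC (POmega F (quadFormOdd m F)) := by
  obtain ⟨p, ⟨hp⟩, _, f, hf, hq⟩ := exists_char F
  have hp2 : p ≠ 2 := by
    rintro rfl
    exact Nat.not_even_iff_odd.2 hodd (hq ▸ Nat.even_pow.2 ⟨even_two, by omega⟩)
  exact nc_POmega_odd (k := m) hp hp2 _
    (ordData_dvd hp (UL.ordData_POmegaOdd hp hodd hm) (by nlinarith))
    (by have := two_mul_lt_pow hp hp2 m; simp; omega)

theorem nc_POmegaPlus {m : ℕ} (hm : 4 ≤ m) : NC (POmega F (quadFormPlus m F)) := by
  obtain ⟨p, ⟨hp⟩, _, -⟩ := exists_char F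
  by_cases hp2 : p = 2
  · subst hp2
    refine NC.of_equiv (pOmegaCongr (plusEquiv m F)) (nc_OG
      (fun i => Pi.single (.inl (i.castLE (by omega))) 1)
      (fun i => Pi.single (.inr (i.castLE (by omega))) 1) ?_ ?_ ?_ ?_ ?_) <;>
    simp [plusQF_apply, quadFormPlus, polar_plusQF, Pi.single_apply, eq_comm]
  · obtain ⟨m, rfl⟩ : ∃ k, m = k + 1 := ⟨m - 1, by omega⟩
    exact nc_POmega_odd (k := m + 1) hp hp2 _
      (ordData_dvd hp (UL.ordData_POmegaPlus hp hm) (by rw [Nat.add_sub_cancel]; nlinarith))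
      (by have := two_mul_lt_pow hp hp2 (m + 1); simp; omega)

theorem nc_POmegaMinus {m : ℕ} (hm : 4 ≤ m) (a b : F)
    (hab : ∀ z₁ z₂ : F, z₁ ^ 2 + a * z₁ * z₂ + b * z₂ ^ 2 = 0 → z₁ = 0 ∧ z₂ = 0) :
    NC (POmega F (quadFormMinus (m - 1) F a b)) := by
  obtain ⟨p, ⟨hp⟩, _, -⟩ := exists_char F
  by_cases hp2 : p = 2
  · subst hp2
    refine NC.of_equiv (pOmegaCongr (minusEquiv (m - 1) F a b)) (nc_OG
      (fun i => Pi.single (.inl (.inl (i.castLE (by omega)))) 1)
      (fun i => Pi.single (.inl (.inr (i.castLE (by omega)))) 1) ?_ ?_ ?_ ?_ ?_) <;>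
    simp [minusQF_apply, quadFormMinus, polar_minusQF, Pi.single_apply, eq_comm]
  · have h := ordData_dvd hp (UL.ordData_POmegaMinus hp hm a b hab) (k := m + 1)
    obtain ⟨m, rfl⟩ : ∃ k, m = k + 1 := ⟨m - 1, by omega⟩
    exact nc_POmega_odd (k := m + 1) hp hp2 _ (h (by rw [Nat.add_sub_cancel]; nlinarith))
      (by have := two_mul_lt_pow hp hp2 (m + 1); simp; omega)

end OrthFam

end Cfsg.Agent.QT
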