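import Mathlib
import Cfsg.Agent.QT.NC
import Cfsg.Agent.QT.OutC
import Cfsg.Agent.Chev.EvalB
import Cfsg.Agent.Chev.GoodG2
import Cfsg.Agent.Chev.GoodD4
import Cfsg.Agent.Chev.GoodF4
import Cfsg.Agent.Chev.GoodE6
import Cfsg.Agent.Chev.GoodE7
import Cfsg.Agent.Chev.GoodE8

/-!
Noncyclic Sylow subgroups of odd order in the exceptional groups of Lie type.
-/

set_option autoImplicit false

namespace Cfsg.Agent.QT

open Subgroup Cfsg Cfsg.Lie Cfsg.Agent.Chev

attribute [local instance] goodG2 goodD4 goodF4 goodE6 goodE7 goodE8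

section Check

variable {D : ChevalleyDatum} [Good D] {F : Type*} [Field F] {K : Type*} [Group K]

/-- Two products of elements `x_r(1)` differ in characteristic two. -/
noncomputable def neB (D : ChevalleyDatum) [Good D] (L L' : List ℕ) : Bool :=
  allL L (fun r => Nat.blt r D.nroots) && allL L' (fun r => Nat.blt r D.nroots) &&
    !Nat.beq (Nat.land (Nat.xor ((tab D).wordB (D.nroots + D.rank) L)
      ((tab D).wordB (D.nroots + D.rank) L')) (2 ^ ((D.nroots + D.rank) * (D.nroots + D.rank)) - 1)) 0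

/-- The product of the elements `x_r(1)`. -/
abbrev wd (D : ChevalleyDatum) [Good D] (F : Type*) [Field F] (L : List ℕ) : GL D.Idx F :=
  oprod (xG D F) L 1

theorem wd_append (L L' : List ℕ) : wd D F (L ++ L') = wd D F L * wd D F L' := by
  simp [wd, oprod]

theorem wd_mem {S : Subgroup (GL D.Idx F)} {Ls : List (List ℕ)} (h : ∀ L ∈ Ls, wd D F L ∈ S) :
    wd D F Ls.flatten ∈ S := by
  induction Ls with
  | nil => exact one_mem _
  | cons L Ls ih =>
    rw [List.flatten_cons, wd_append]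
    exact mul_mem (h L (by simp)) (ih fun L' hL' => h L' (by simp [hL']))

theorem wd_mem_group (L : List ℕ) : wd D F L ∈ D.group F :=
  list_prod_mem (by simpa using fun r _ => xG_mem_group r 1)

theorem wd_mem_gen {W : Set (List (ℕ × F))} {w : List (ℕ × F)} (hw : w ∈ W) {L : List ℕ}
    (h : D.wordMat F (L.map fun r => (r, 1)) = D.wordMat F w) : wd D F L ∈ D.genSubgroup F W :=
  subset_closure ⟨w, hw, (coe_oprod L 1).trans h⟩

variable [CharP F 2]

theorem wd_eq {L L' : List ℕ} (h : eqB D L L' = true) : wd D F L = wd D F L' := by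
  have := congrArg Subtype.val (oprod_eq_of_eqB (F := F) h)
  rwa [coe_oprod_xC, coe_oprod_xC] at this

theorem wd_ne {L L' : List ℕ} (h : neB D L L' = true) : wd D F L ≠ wd D F L' := fun e => by
  simp only [neB, Bool.and_eq_true, allL_iff, Nat.blt_eq, Bool.not_eq_true', ← Bool.not_eq_true,
    Nat.beq_eq] at h
  have h1 := (decB_wordB (F := F) h.1.1).trans
    ((congrArg Units.val e).trans (decB_wordB h.1.2).symm)
  generalize (tab D).wordB _ L = A at *
  generalize (tab D).wordB _ L' = B at *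
  refine h.2 (Nat.eq_of_testBit_eq fun k => ?_)
  rw [show Nat.land (Nat.xor A B) _ = (A ^^^ B) &&& _ from rfl, Nat.testBit_and, Nat.testBit_xor,
    Nat.testBit_two_pow_sub_one, Nat.zero_testBit]
  by_cases hk : k < (D.nroots + D.rank) * (D.nroots + D.rank)
  · have h0 : 0 < D.nroots + D.rank := Nat.pos_of_ne_zero fun e => by simp [e] at hk
    obtain ⟨a, ha⟩ := exists_code D (Nat.div_lt_of_lt_mul hk)
    obtain ⟨c, hc⟩ := exists_code D (Nat.mod_lt k h0)
    have h2 := congrFun (congrFun h1 a) c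
    simp only [decB, Matrix.of_apply, ha, hc, Nat.div_add_mod, bitF] at h2
    cases hA : A.testBit k <;> cases hB : B.testBit k <;> simp_all
  · simp [hk]

/-- Two commuting elements of order three, told apart by a third element. -/
noncomputable def ncB (D : ChevalleyDatum) [Good D] (X Y U : List ℕ) : Bool :=
  eqB D (X ++ X ++ X) [] && eqB D (Y ++ Y ++ Y) [] && eqB D (X ++ Y) (Y ++ X) && neB D X [] &&
    eqB D (X ++ U) (U ++ X) && neB D (Y ++ U) (U ++ Y)

theorem nc_of_ncB (ι : K →* GL D.Idx F) (hι : Function.Injective ι) {X Y U : List ℕ}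
    (h : ncB D X Y U = true) {x y : K} (hx : ι x = wd D F X) (hy : ι y = wd D F Y) : NC K := by
  simp only [ncB, Bool.and_eq_true] at h
  obtain ⟨⟨⟨⟨⟨h1, h2⟩, h3⟩, h4⟩, h5⟩, h6⟩ := h
  have cu : ∀ {x : K} {X : List ℕ}, ι x = wd D F X → eqB D (X ++ X ++ X) [] = true → x ^ 3 = 1 :=
    fun hx h => hι (by
      have := wd_eq (F := F) h
      rw [wd_append, wd_append] at this
      rw [map_pow, hx, pow_three', this, map_one]; rfl)
  refine nc_of_sep ι Nat.prime_three (by norm_num) (cu hx h1) (cu hy h2) (hι ?_)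
    (fun e => wd_ne (F := F) h4 (by rw [← hx, e, map_one]; rfl)) (u := wd D F U) ?_ fun e => ?_
  · rw [map_mul, map_mul, hx, hy, ← wd_append, ← wd_append, wd_eq h3]
  · rw [hx, Commute, SemiconjBy, ← wd_append, ← wd_append, wd_eq h5]
  · exact wd_ne (F := F) h6 (by rw [wd_append, wd_append, ← hy, e.eq])

theorem nc_sub_of_ncB {S : Subgroup (GL D.Idx F)} {X Y U : List ℕ} (h : ncB D X Y U = true)
    (hx : wd D F X ∈ S) (hy : wd D F Y ∈ S) : NC S :=
  nc_of_ncB S.subtype S.subtype_injective h (x := ⟨_, hx⟩) (y := ⟨_, hy⟩) rfl rfl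

end Check

section Fam

variable {F : Type*} [Field F] [Fintype F]

theorem nc_sub_odd {D : ChevalleyDatum} {p k : ℕ} (hp : p.Prime) (hp2 : p ≠ 2) [CharP F p]
    (S : Subgroup (GL D.Idx F)) (hd : p ^ (k + 1) ∣ Nat.card S) (hn : D.rank + D.nroots ≤ 3 ^ k) :
    NC S :=
  nc_of_matrix hp hp2 ((Units.coeHom _).comp S.subtype)
    (Units.val_injective.comp Subtype.val_injective) (MonoidHom.id S) Function.surjective_id hd (by
      simpa using hn.trans (Nat.pow_le_pow_left (show 3 ≤ p from hp.two_le.lt_of_ne' hp2) k))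

theorem nc_group {D : ChevalleyDatum} [Good D] {X Y U : List ℕ} (h : ncB D X Y U = true) {N d k : ℕ}
    (ho : ∀ p : ℕ, p.Prime → ∀ [CharP F p], UL.OrdData p (Nat.card (D.group F)) N d) (hk : k + 1 ≤ N)
    (hn : D.rank + D.nroots ≤ 3 ^ k) : NC (D.group F) := by
  obtain ⟨p, ⟨hp⟩, _, -⟩ := exists_char F
  by_cases hp2 : p = 2
  · subst hp2
    exact nc_sub_of_ncB h (wd_mem_group _) (wd_mem_group _)
  · exact nc_sub_odd hp hp2 _ (ordData_dvd hp (ho p hp) hk) hn

theorem nc_G2 : NC (chevG2.group F) :=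
  nc_group (X := [6, 5]) (Y := [9, 2]) (U := [9]) (k := 3) (by decide +kernel)
    (fun _ hp => UL.ordData_G2 hp) (by norm_num) (by decide)

theorem nc_F4 : NC (chevF4.group F) :=
  nc_group (X := [33, 14]) (Y := [24, 23]) (U := [24]) (k := 4) (by decide +kernel)
    (fun _ hp => UL.ordData_F4 hp) (by norm_num) (by decide)

theorem nc_E6 : NC (chevE6.group F) :=
  nc_group (X := [56, 15]) (Y := [46, 25]) (U := [46]) (k := 4) (by decide +kernel)
    (fun _ hp => UL.ordData_E6 hp) (by norm_num) (by decide)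

theorem nc_E7 : NC (chevE7.group F) :=
  nc_group (X := [93, 32]) (Y := [78, 47]) (U := [78]) (k := 5) (by decide +kernel)
    (fun _ hp => UL.ordData_E7 hp) (by norm_num) (by decide)

theorem nc_E8 : NC (chevE8.group F) :=
  nc_group (X := [162, 77]) (Y := [141, 98]) (U := [141]) (k := 6) (by decide +kernel)
    (fun _ hp => UL.ordData_E8 hp) (by norm_num) (by decide)

theorem nc_2E6 {q : ℕ} (hq : IsPrimePow q) (hF : Fintype.card F = q ^ 2) : NC (twistedE6 F q) := by
  obtain ⟨p, ⟨hp⟩, _, -⟩ := exists_char F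
  by_cases hp2 : p = 2
  · subst hp2
    refine nc_sub_of_ncB (X := [[56, 36], [15, 35]].flatten) (Y := [[46], [25]].flatten) (U := [46])
      (by decide +kernel) (wd_mem ?_) (wd_mem ?_) <;>
      simp only [List.forall_mem_cons, List.not_mem_nil, false_imp_iff, implies_true, and_true]
    · exact ⟨wd_mem_gen (Or.inr ⟨1, (e6p1, e6p6), by simp, rfl⟩) (by rw [one_pow]; rfl),
        wd_mem_gen (Or.inr ⟨1, (e6m1, e6m6), by simp, rfl⟩) (by rw [one_pow]; rfl)⟩
    · exact ⟨wd_mem_gen (Or.inl ⟨1, one_pow q, e6p2, by simp, rfl⟩) rfl,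
        wd_mem_gen (Or.inl ⟨1, one_pow q, e6m2, by simp, rfl⟩) rfl⟩
  · exact nc_sub_odd (k := 4) hp hp2 _ (ordData_dvd hp (UL.ordData_2E6 hp hq hF) (by norm_num))
      (by decide)

theorem nc_3D4 {q : ℕ} (hq : IsPrimePow q) (hF : Fintype.card F = q ^ 3) : NC (twistedD4 F q) := by
  obtain ⟨p, ⟨hp⟩, _, -⟩ := exists_char F
  by_cases hp2 : p = 2
  · subst hp2
    have h1 : wd chevD4 F [18, 13, 12] ∈ twistedD4 F q :=
      wd_mem_gen (Or.inr ⟨1, (d4p1, d4p3, d4p4), by simp, rfl⟩) (by rw [one_pow, one_pow]; rfl)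
    have h2 : wd chevD4 F [5, 10, 11] ∈ twistedD4 F q :=
      wd_mem_gen (Or.inr ⟨1, (d4m1, d4m3, d4m4), by simp, rfl⟩) (by rw [one_pow, one_pow]; rfl)
    have h3 : wd chevD4 F [14] ∈ twistedD4 F q :=
      wd_mem_gen (Or.inl ⟨1, one_pow q, d4p2, by simp, rfl⟩) rfl
    have h4 : wd chevD4 F [9] ∈ twistedD4 F q :=
      wd_mem_gen (Or.inl ⟨1, one_pow q, d4m2, by simp, rfl⟩) rfl
    refine nc_sub_of_ncB (X := [[14], [9], [14], [18, 13, 12], [5, 10, 11], [18, 13, 12], [14], [9],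
      [18, 13, 12], [5, 10, 11], [18, 13, 12], [14], [9], [14]].flatten)
      (Y := [[18, 13, 12], [5, 10, 11]].flatten) (U := [18, 13, 12])
      (by decide +kernel) (wd_mem ?_) (wd_mem ?_) <;>
      simp only [List.forall_mem_cons, List.not_mem_nil, false_imp_iff, implies_true, and_true,
        h1, h2, h3, h4]
  · exact nc_sub_odd (k := 4) hp hp2 _ (ordData_dvd hp (UL.ordData_3D4 hp hq hF) (by norm_num))
      (by decide)

theorem nc_Ree {m : ℕ} (hm : 1 ≤ m) (hF : Fintype.card F = 3 ^ (2 * m + 1)) :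
    NC (twistedG2 F (3 ^ m)) := by
  haveI : CharP F 3 := charP_of_card_eq_prime_pow (hp := ⟨Nat.prime_three⟩) hF
  refine nc_sub_odd (k := 3) Nat.prime_three (by norm_num) _ ?_ (by decide)
  rw [S1069.result hF, mul_assoc, ← pow_mul]
  exact (pow_dvd_pow 3 (by omega)).mul_right _

end Fam

section F4

variable {F : Type*} [Field F] [CharP F 2] {e : ℕ}

/-- A word for an element of the Weyl group. -/
def f4G : List (List ℕ) :=
  [[33, 24], [14, 23], [33, 24], [27, 25, 28], [20, 22, 19], [28, 30], [19, 17],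
    [33, 24], [14, 23], [33, 24], [27, 25, 28], [20, 22, 19], [28, 30], [19, 17]]

theorem f4_chk : ncB chevF4 (f4G.flatten ++ ([33, 24] ++ [14, 23]) ++ f4G.flatten.reverse)
    ([33, 24] ++ [14, 23]) [33, 24] = true := by decide +kernel

theorem f4_exists (he : e ≠ 0) : ∃ a b g : twistedF4 F e, a * a = 1 ∧ b * b = 1 ∧ (a * b) ^ 3 = 1 ∧
    (a * b).1 = wd chevF4 F ([33, 24] ++ [14, 23]) ∧ (g * (a * b) * g⁻¹).1 =
      wd chevF4 F (f4G.flatten ++ ([33, 24] ++ [14, 23]) ++ f4G.flatten.reverse) := by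
  have h1 : wd chevF4 F [33, 24] ∈ twistedF4 F e :=
    wd_mem_gen (Or.inl ⟨1, Or.inl rfl⟩) (by rw [f4PairWord, one_pow]; rfl)
  have h2 : wd chevF4 F [14, 23] ∈ twistedF4 F e :=
    wd_mem_gen (Or.inl ⟨1, Or.inr rfl⟩) (by rw [f4PairWord, one_pow]; rfl)
  have h3 : wd chevF4 F [27, 25, 28] ∈ twistedF4 F e :=
    wd_mem_gen (Or.inr ⟨1, 0, Or.inl rfl⟩)
      (by simp [b2ClassWord, ChevalleyDatum.wordMat, he, x_zero, f4a, f4b, f4ab])
  have h4 : wd chevF4 F [20, 22, 19] ∈ twistedF4 F e :=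
    wd_mem_gen (Or.inr ⟨1, 0, Or.inr rfl⟩)
      (by simp [b2ClassWord, ChevalleyDatum.wordMat, he, x_zero, f4ma, f4mb, f4mab])
  have h5 : wd chevF4 F [28, 30] ∈ twistedF4 F e :=
    wd_mem_gen (Or.inr ⟨0, 1, Or.inl rfl⟩)
      (by simp [b2ClassWord, ChevalleyDatum.wordMat, he, x_zero, f4aab, f4ab])
  have h6 : wd chevF4 F [19, 17] ∈ twistedF4 F e :=
    wd_mem_gen (Or.inr ⟨0, 1, Or.inr rfl⟩)
      (by simp [b2ClassWord, ChevalleyDatum.wordMat, he, x_zero, f4maab, f4mab])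
  have h7 : wd chevF4 F f4G.flatten ∈ twistedF4 F e := wd_mem (by
    simp only [f4G, List.forall_mem_cons, List.not_mem_nil, false_imp_iff, implies_true, and_true,
      h1, h2, h3, h4, h5, h6])
  refine ⟨⟨_, h1⟩, ⟨_, h2⟩, ⟨_, h7⟩, Subtype.ext ?_, Subtype.ext ?_, Subtype.ext ?_,
    (wd_append _ _).symm, ?_⟩
  · exact (wd_append _ _).symm.trans (wd_eq (L' := []) (by decide +kernel))
  · exact (wd_append _ _).symm.trans (wd_eq (L' := []) (by decide +kernel))
  · change (wd chevF4 F _ * wd chevF4 F _) ^ 3 = 1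
    rw [pow_three', ← wd_append, ← wd_append, ← wd_append]
    exact wd_eq (L' := []) (by decide +kernel)
  · rw [wd_append, wd_append, wd_append, eq_inv_of_mul_eq_one_right
      ((wd_append f4G.flatten f4G.flatten.reverse).symm.trans (wd_eq (L' := []) (by decide +kernel)))]
    rfl

theorem nc_commutator_2F4 (he : e ≠ 0) : NC (commutator (twistedF4 F e)) := by
  obtain ⟨a, b, g, h1, h2, h3, h4, h5⟩ := f4_exists (F := F) he
  have h := mul_mem_commutator_of_ab h1 (ab_eq_of_cube h1 h2 h3)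
  exact nc_of_ncB ((Subgroup.subtype _).comp (Subgroup.subtype _))
    (Subtype.val_injective.comp Subtype.val_injective) f4_chk
    (x := ⟨_, Normal.conj_mem inferInstance _ h g⟩) (y := ⟨_, h⟩) h5 h4

theorem nc_2F4 (he : e ≠ 0) : NC (twistedF4 F e) :=
  (nc_commutator_2F4 he).of_injective (Subgroup.subtype _) Subtype.val_injective

theorem nc_of_isoTits {K : Type*} [Group K] (h : IsoTits K) : NC K := by
  have key : ∀ {A : Type} [Group A] (H : Subgroup A), Nonempty (K ≃* H) → NC H → NC K :=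
    fun H ⟨e⟩ h => h.of_equiv e
  exact key _ h (nc_commutator_2F4 one_ne_zero)

end F4

theorem nc_exc {K : Type*} [Group K] (h : IsExceptionalLieType K) : IsoSuzuki K ∨ NC K := by
  rcases h with ⟨F, _, _, -, ⟨e⟩⟩ | ⟨F, _, _, ⟨e⟩⟩ | ⟨F, _, _, ⟨e⟩⟩ | ⟨F, _, _, ⟨e⟩⟩ |
    ⟨F, _, _, ⟨e⟩⟩ | ⟨F, _, _, q, h1, h2, ⟨e⟩⟩ | ⟨F, _, _, q, h1, h2, ⟨e⟩⟩ | h |
    ⟨F, _, _, m, h1, h2, ⟨e⟩⟩ | ⟨F, _, _, m, -, h2, ⟨e⟩⟩ | h
  · exact Or.inr (nc_G2.of_equiv e)
  · exact Or.inr (nc_F4.of_equiv e)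
  · exact Or.inr (nc_E6.of_equiv e)
  · exact Or.inr (nc_E7.of_equiv e)
  · exact Or.inr (nc_E8.of_equiv e)
  · exact Or.inr ((nc_2E6 h1 h2).of_equiv e)
  · exact Or.inr ((nc_3D4 h1 h2).of_equiv e)
  · exact Or.inl h
  · exact Or.inr ((nc_Ree h1 h2).of_equiv e)
  · haveI : CharP F 2 := charP_of_card_eq_prime_pow (hp := ⟨Nat.prime_two⟩) h2
    exact Or.inr ((nc_2F4 (by positivity)).of_equiv e)
  · exact Or.inr (nc_of_isoTits h)

end Cfsg.Agent.QT
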