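import Mathlib
import Cfsg.Agent.QT.Tame
import Cfsg.Agent.S0205

/-!
Structure of strongly quasithin groups whose components have solvable outer automorphism groups:
the `𝒞`-components generate the perfect core; `𝒞`-components of overgroups of a Sylow 2-subgroup lie
in `𝒞`-components.
-/

set_option autoImplicit false

namespace Cfsg.Agent.QT

open Subgroup Cfsg Cfsg.Agent.PLocal Cfsg.Agent.PLocal.Amb Cfsg.Agent.Grp
open scoped commutatorElement

variable {G : Type*} [Group G] [Finite G]

/-- The components of `G` have tame outer automorphism groups. -/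
def TameComp (G : Type*) [Group G] : Prop :=
  ∀ K : Subgroup G, IsComponent K → Tame (Out (K ⧸ center K))

/-- the join of the `𝒞`-components -/
def ccJoin (G : Type*) [Group G] : Subgroup G := sSup {L : Subgroup G | IsCC L ⊤}

omit [Finite G] in
theorem IsCC.le_ccJoin {L : Subgroup G} (h : IsCC L ⊤) : L ≤ ccJoin G := le_sSup h

instance ccJoin_normal (G : Type*) [Group G] : (ccJoin G).Normal :=
  normalizer_eq_top_iff.1 (top_le_iff.1 (le_normalizer_sSup fun g _ _ hU =>
    IsCC.cj_of_mem hU (mem_top g)))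

omit [Finite G] in
theorem ccJoin_eq : ccJoin G = sSup (calC G) := by
  rw [ccJoin]
  congr 1
  ext L
  exact isCC_top_iff

theorem map_ccJoin {G' : Type*} [Group G'] (f : G →* G') (hf : Function.Surjective f)
    (hk : Group.IsSolvable f.ker) : (ccJoin G).map f = ccJoin G' := by
  apply le_antisymm
  · rw [map_le_iff_le_comap]
    refine sSup_le fun L hL => map_le_iff_le_comap.1 (IsCC.le_ccJoin ?_)
    have := IsCC.map' hL f hk
    rwa [map_top_of_surjective f hf] at this
  · refine sSup_le fun K hK => ?_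
    have h1 : IsCC K ((⊤ : Subgroup G).map f) := by rwa [map_top_of_surjective f hf]
    obtain ⟨L, l1, rfl⟩ := h1.exists_of_map f hk
    exact map_mono l1.le_ccJoin

theorem IsCC.comp_or_rho (hS : IsStronglyQuasithin G) (hO : pCore 2 G = ⊥) {K : Subgroup G}
    (h : IsCC K ⊤) : IsComponent K ∨ ∃ (p : ℕ) (_ : Fact p.Prime) (ρ : G →* GL (Fin 2) (ZMod p)),
      ¬ K ≤ ρ.ker := by
  by_contra hcon
  push Not at hcon
  refine hcon.1 (h.isComponent_of_le_centralizer fun x hx => FT.R2.mem_cent_fitting fun p hp => ?_)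
  haveI := Fact.mk hp
  by_cases hp2 : p = 2
  · subst hp2
    rw [hO]
    exact le_centralizer_iff.1 bot_le (mem_top x)
  obtain ⟨ρ, hρ⟩ := exists_rho hp2 (hS p hp hp2)
  exact h.le_centralizer_pCore hρ (hcon.2 p _ ρ) hx

theorem perfect_le_ccJoin_red (hS : IsStronglyQuasithin G) (hO : pCore 2 G = ⊥) (hT : TameComp G)
    {X : Subgroup G} (hX : ⁅X, X⁆ = X) : X ≤ ccJoin G := by
  obtain ⟨n, hn⟩ := exists_der_perfect (⊤ : Subgroup G)
  have hXD : X ≤ der ⊤ n := by
    rw [← der_of_perfect hX n]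
    exact der_mono le_top n
  refine hXD.trans ?_
  set D := der (⊤ : Subgroup G) n with hD
  let π := QuotientGroup.mk' (solvableRadical G)
  have hπ : Function.Surjective π := QuotientGroup.mk'_surjective _
  have hR := FGS.solvableRadical_quotient G
  have h1 : ∀ K : Subgroup (G ⧸ solvableRadical G), IsComponent K → D.map π ≤ K ⊔ 𝐂[K] := by
    intro K hK
    have h2 : IsCC K ((⊤ : Subgroup G).map π) := by
      rw [map_top_of_surjective π hπ]; exact isCC_of_isComponent hK
    obtain ⟨L, l1, rfl⟩ := h2.exists_of_map π (isSolvable_ker_mk_rad G)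
    rcases l1.comp_or_rho hS hO with c | ⟨p, _, ρ, hρ⟩
    · refine (map_mono (LBal.le_sup_centralizer_of_out_solvable l1.perf hn
        (l1.perfect_le_normalizer hS hn) (hT L c).isSolvable)).trans ?_
      rw [Subgroup.map_sup]
      refine sup_le_sup_left ?_ _
      rw [← commutator_eq_bot_iff_le_centralizer, ← map_commutator,
        commutator_eq_bot_iff_le_centralizer.2 le_rfl, Subgroup.map_bot]
    · have hLD : L ≤ D := by
        rw [← der_of_perfect l1.perf n]
        exact der_mono le_top n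
      have e := GL2_perfect_eq (X₁ := D.map ρ) (X₂ := L.map ρ) (by rw [← map_commutator, hn])
        (by rw [← map_commutator, l1.perf])
        (fun e => hρ (hLD.trans ((Subgroup.map_eq_bot_iff _).1 e)))
        (fun e => hρ ((Subgroup.map_eq_bot_iff _).1 e)) ((snIn_der ⊤ n).map ρ) (l1.sn.map ρ)
      have e' := map_le_iff_le_comap.1 e.le
      rw [comap_map_eq] at e'
      refine (map_mono e').trans ?_
      rw [Subgroup.map_sup]
      refine sup_le_sup_left ?_ _
      rw [← commutator_eq_bot_iff_le_centralizer, ← map_commutator, Subgroup.map_eq_bot_iff,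
        QuotientGroup.ker_mk', commutator_comm]
      exact (l1.le_or_commutator_le (SnIn.of_normal le_top)).resolve_left hρ
  have h2 : D.map π ≤ layer _ := fun x hx => by
    have h3 := LBal.mem_layer_sup_centralizer fun K hK => h1 K hK hx
    have h4 : 𝐂[layer (G ⧸ solvableRadical G)] ≤ ⊥ := by
      have := centralizer_layer_inf_centralizer_fitting_le (G := G ⧸ solvableRadical G)
      rw [fitting_eq_bot hR] at this
      exact (le_inf le_rfl (le_centralizer_iff.1 bot_le)).trans this
    rwa [le_bot_iff.1 h4, sup_bot_eq] at h3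
  have h3 : layer (G ⧸ solvableRadical G) ≤ (ccJoin G).map π := by
    rw [map_ccJoin π hπ (isSolvable_ker_mk_rad G)]
    exact layer_le_iff.2 fun L hL => (isCC_of_isComponent hL).le_ccJoin
  have h4 := map_le_iff_le_comap.1 (h2.trans h3)
  rw [comap_map_eq] at h4
  exact perfect_le_of_le_sup hn (isSolvable_ker_mk_rad G) le_normalizer_of_normal h4

theorem perfect_le_ccJoin (hS : IsStronglyQuasithin G) (hT : TameComp (G ⧸ pCore 2 G))
    {X : Subgroup G} (hX : ⁅X, X⁆ = X) : X ≤ ccJoin G := by
  have h1 := perfect_le_ccJoin_red (sqt_quotient hS) (pCore_quotient_pCore 2 G) hT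
    (X := X.map (QuotientGroup.mk' _)) (by rw [← map_commutator, hX])
  rw [← map_ccJoin _ (QuotientGroup.mk'_surjective _) (isSolvable_ker_mk_pCore 2),
    map_le_iff_le_comap, comap_map_eq] at h1
  exact perfect_le_of_le_sup hX (isSolvable_ker_mk_pCore 2) le_normalizer_of_normal h1

theorem sSup_calC_eq (hS : IsStronglyQuasithin G) (hT : TameComp (G ⧸ pCore 2 G)) :
    sSup (calC G) = perfectCore G :=
  le_antisymm (sSup_le_sSup fun _ h => h.2.1)
    (sSup_le fun _ h => ccJoin_eq (G := G) ▸ perfect_le_ccJoin hS hT h)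

/-- A perfect subnormal subgroup centralizing a Sylow 2-subgroup modulo a solvable subgroup is trivial. -/
theorem eq_bot_of_commutator_syl {L S Y R : Subgroup G} (hS : IsSyl 2 S Y) (hL : SnIn L Y)
    (hp : ⁅L, L⁆ = L) (hR : Group.IsSolvable R) (hn : L ≤ 𝐍[R]) (hc : ⁅L, S⁆ ≤ R) : L = ⊥ := by
  have h1 : IsSyl 2 (S ⊓ L) L := CP.isSyl_inf_of_snIn hS hL
  have h2 : L ≤ 𝐍[R ⊓ L] := Amb.le_normalizer_inf hn le_normalizer
  have h3 : ⁅L, S ⊓ L⁆ ≤ R ⊓ L := le_inf ((commutator_mono le_rfl inf_le_left).trans hc)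
    ((commutator_mono le_rfl inf_le_right).trans (commutator_le_self L))
  set W := (S ⊓ L) ⊔ (R ⊓ L) with hW
  have hWL : W ≤ L := sup_le inf_le_right inf_le_right
  have h4 : L ≤ 𝐍[W] := by
    rw [le_normalizer_iff_commutator_le_right]
    refine CommMod.commutator_sup_le' (le_sup_left.trans le_normalizer)
      (le_sup_right.trans le_normalizer) (h3.trans le_sup_right) ?_
    exact (le_normalizer_iff_commutator_le_right.1 h2).trans le_sup_right
  haveI : (W.subgroupOf L).Normal := normal_subgroupOf' h4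
  have h5 : Group.IsSolvable (L ⧸ W.subgroupOf L) := by
    apply S0205.result
    rw [← Nat.not_even_iff_odd, even_iff_two_dvd, ← index_eq_card]
    exact fun e => h1.not_dvd_relIndex (e.trans (relIndex_dvd_of_le_left L le_sup_left))
  have h6 : ⁅(⊤ : Subgroup L), (⊤ : Subgroup L)⁆ = ⊤ := by
    apply map_injective L.subtype_injective
    rw [map_commutator, ← MonoidHom.range_eq_map, range_subtype, hp]
  have h7 := LBal.le_ker_of_perfect h6 (QuotientGroup.mk' (W.subgroupOf L)) (H := ⊤) inferInstance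
    le_top
  rw [QuotientGroup.ker_mk', top_le_iff, subgroupOf_eq_top, hW, sup_comm] at h7
  haveI := h1.pgrp.isNilpotent
  exact LBal.eq_bot_of_perfect_of_le_solvable hp hR
    ((perfect_le_of_le_sup hp inferInstance (inf_le_right.trans h2) h7).trans inf_le_left)

theorem isSyl_subgroupOf {p : ℕ} [Fact p.Prime] {S K M : Subgroup G} (h : IsSyl p S K) (hK : K ≤ M) :
    IsSyl p (S.subgroupOf M) (K.subgroupOf M) :=
  isSyl_of_not_dvd_relIndex (Amb.isPGroup_subgroupOf h.pgrp M) (comap_mono h.le)
    (by rw [relIndex_subgroupOf hK]; exact h.not_dvd_relIndex)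

theorem le_of_proj_top {K C B S L R : Subgroup G} [C.Normal] (hKC : K ⊔ C = ⊤) (hS : IsSyl 2 S K)
    (hSB : S ≤ B) (hL : SnIn L B) (hp : ⁅L, L⁆ = L) (hR : Group.IsSolvable R) (hn : L ≤ 𝐍[R])
    (hc : ⁅L, S⁆ ≤ R) : L ≤ C := by
  let π := QuotientGroup.mk' C
  have h1 : K.map π = ⊤ := by
    have := congrArg (map π) hKC
    rwa [Subgroup.map_sup, (Subgroup.map_eq_bot_iff C).2 (QuotientGroup.ker_mk' C).ge, sup_bot_eq,
      map_top_of_surjective _ (QuotientGroup.mk'_surjective C)] at this
  have h2 := hS.map π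
  rw [h1] at h2
  have h3 := eq_bot_of_commutator_syl (h2.mono (map_mono hSB) le_top) (hL.map π)
    (by rw [← map_commutator, hp]) (FGS.isSolvable_map π hR)
    ((map_mono hn).trans (le_normalizer_map _)) (by rw [← map_commutator]; exact map_mono hc)
  rwa [Subgroup.map_eq_bot_iff, QuotientGroup.ker_mk'] at h3

theorem le_of_proj {K C B S L R : Subgroup G} (hKC : K ≤ 𝐍[C]) (hS : IsSyl 2 S K)
    (hSB : S ≤ B) (hL : SnIn L B) (hLK : L ≤ K ⊔ C) (hp : ⁅L, L⁆ = L) (hR : Group.IsSolvable R)
    (hn : L ≤ 𝐍[R]) (hc : ⁅L, S⁆ ≤ R) : L ≤ C := by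
  set M := K ⊔ C with hM
  haveI : (C.subgroupOf M).Normal := normal_subgroupOf' (sup_le hKC le_normalizer)
  have hSM : S ≤ M := hS.le.trans le_sup_left
  have h1 := le_of_proj_top (K := K.subgroupOf M) (C := C.subgroupOf M) (B := B.subgroupOf M)
    (S := S.subgroupOf M) (L := L.subgroupOf M) (R := R.subgroupOf M)
    (by rw [← subgroupOf_sup le_sup_left le_sup_right, subgroupOf_self])
    (isSyl_subgroupOf hS le_sup_left) (comap_mono hSB) (hL.comap _)
    (map_injective M.subtype_injective (by rw [map_commutator, map_subgroupOf_eq_of_le hLK, hp]))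
    (FGS.isSolvable_comap _ hR (by rw [ker_subtype]; infer_instance))
    ((comap_mono hn).trans (le_normalizer_comap _))
    (by
      refine map_le_iff_le_comap.1 ?_
      rw [map_commutator, map_subgroupOf_eq_of_le hLK, map_subgroupOf_eq_of_le hSM]
      exact hc)
  exact fun x hx => h1 (x := ⟨x, hLK hx⟩) hx

theorem IsCC.le_or_commutator_le' {L N B : Subgroup G} (h : IsCC L B) (hN : SnIn N B) :
    L ≤ N ∨ ⁅L, N⁆ ≤ (solvableRadical B).map B.subtype := by
  have h1 : IsCC (L.subgroupOf B) ⊤ := isCC_top_iff.2 ((subgroupOf_mem_calC_iff h.le).2 h)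
  rcases h1.le_or_commutator_le (snIn_top_iff.2 hN.isSubnormal_subgroupOf) with e | e
  · exact Or.inl fun x hx => e (x := ⟨x, h.le hx⟩) hx
  · right
    have := map_mono (f := B.subtype) e
    rwa [map_commutator, map_subgroupOf_eq_of_le h.le, map_subgroupOf_eq_of_le hN.le] at this

/-- A `𝒞`-component of an overgroup of a Sylow 2-subgroup lies in a `𝒞`-component. -/
theorem IsCC.exists_le (hS : IsStronglyQuasithin G) (hT : TameComp (G ⧸ pCore 2 G))
    {T B L : Subgroup G} (hTs : IsSyl 2 T ⊤) (hTB : T ≤ B) (h : IsCC L B) :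
    ∃ K, IsCC K ⊤ ∧ L ≤ K := by
  by_contra hcon
  push Not at hcon
  have hLD := perfect_le_ccJoin hS hT h.perf
  have key : ∀ K, IsCC K ⊤ → ⁅L, K⁆ ≤ solvableRadical G := by
    intro K hK
    have h1 : ccJoin G ≤ K ⊔ CommMod.centMod K (solvableRadical G) := by
      refine sSup_le fun K' hK' => ?_
      by_cases e : K' = K
      · exact e ▸ le_sup_left
      · exact le_sup_of_le_right (CommMod.le_centMod_of_normal.2
          ((IsCC.commutator_le hS hK' hK e).trans (FGS.pCore_le_solvableRadical 2)))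
    have h2 : ⁅L, K ⊓ B⁆ ≤ (solvableRadical B).map B.subtype :=
      (h.le_or_commutator_le' (hK.sn.inf_of_le le_top)).resolve_left
        fun e => hcon K hK (e.trans inf_le_left)
    refine CommMod.le_centMod_of_normal.1 (le_of_proj (S := T ⊓ K)
      ((le_inf le_normalizer le_normalizer_of_normal).trans
        (CommMod.inf_normalizer_le_normalizer_centMod _ _))
      (CP.isSyl_inf_of_snIn hTs hK.sn) (inf_le_left.trans hTB) h.sn (hLD.trans h1) h.perf
      (FGS.isSolvable_map _ (FGS.isSolvable_solvableRadical B))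
      (h.le.trans (Amb.le_normalizer_map_subtype _)) ((commutator_mono le_rfl ?_).trans h2))
    exact le_inf inf_le_right (inf_le_left.trans hTB)
  refine h.not_le_solvable (FGS.isSolvable_solvableRadical G) (h.perf.ge.trans ?_)
  rw [commutator_comm]
  refine (commutator_mono hLD le_rfl).trans
    (CommMod.commutator_sSup_le (fun _ _ => le_normalizer_of_normal) fun K hK => ?_)
  rw [commutator_comm]
  exact key K hK

/-- the conjugates of a `𝒞`-component are conjugate under a Sylow 2-subgroup -/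
theorem IsCC.exists_cj_eq (hS : IsStronglyQuasithin G) {T L : Subgroup G} (hTs : IsSyl 2 T ⊤)
    (h : IsCC L ⊤) (g : G) : ∃ t ∈ T, cj(g, L) = cj(t, L) := by
  by_cases hg : g ∈ 𝐍[L]
  · exact ⟨1, one_mem _, by rw [cj_one, Amb.cj_of_mem_normalizer hg]⟩
  obtain ⟨t, ht, ht'⟩ : ∃ t ∈ T, t ∉ 𝐍[L] := by
    by_contra hcon
    push Not at hcon
    apply hg
    have h1 := hTs.sup_eq_of_pRes_le (h.pRes_le_normalizer hS ⊤) le_top
    rw [sup_eq_left.2 hcon] at h1
    exact h1 ▸ mem_top g
  refine ⟨t, ht, ?_⟩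
  have := Amb.cj_of_mem_normalizer (h.two_conj hS ht' hg)
  rw [cj_mul] at this
  rw [← cj_cj_inv t cj(g, L), this]

theorem IsCC.ncl_eq (hS : IsStronglyQuasithin G) {T L : Subgroup G} (hTs : IsSyl 2 T ⊤)
    (h : IsCC L ⊤) : CP.ncl L T = CP.ncl L ⊤ := by
  refine le_antisymm (CP.ncl_mono le_rfl le_top) (CP.ncl_le_iff.2 fun g _ => ?_)
  obtain ⟨t, ht, e⟩ := h.exists_cj_eq hS hTs g
  exact e ▸ CP.cj_le_ncl L ht

/-- A non-normal `𝒞`-component of a group with `O₂ = 1` is a simple component with cyclic Sylow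
`p`-subgroups for odd `p`. -/
theorem IsCC.of_not_normal (hS : IsStronglyQuasithin G) (hO : pCore 2 G = ⊥) {L : Subgroup G}
    (h : IsCC L ⊤) {g : G} (hg : g ∉ 𝐍[L]) :
    IsComponent L ∧ IsSimpleGroup L ∧ ∀ p : ℕ, p.Prime → p ≠ 2 → PRankLE p 1 L := by
  have hne : L ≠ cj(g, L) := fun e => hg (cj_eq_iff.1 e.symm)
  have h1 : IsComponent L := by
    refine h.isComponent_of_le_centralizer fun x hx => FT.R2.mem_cent_fitting fun p hp => ?_
    rcases h.le_centralizer_or hS hO (h.cj_top g) hne p hp with e | e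
    · exact e hx
    · rw [cj_le_iff, cj_of_normal] at e
      exact e hx
  have hc := commutator_eq_bot_iff_le_centralizer.1 (h.commute hS hO (h.cj_top g) hne)
  have h2 : ∀ p : ℕ, p.Prime → p ≠ 2 → PRankLE p 1 L := by
    intro p hp hp2
    haveI := Fact.mk hp
    by_cases hd : p ∣ Nat.card L
    · refine FT.R2.pRankLE_iff.2 fun E h1 h2 => ?_
      by_contra hlt
      exact not_rank_of_EA_perfect hp2 h2
        (FT.R2.pow_succ_le_card (isEA_isPGroup h2) (not_le.1 hlt)) (h.cj_top g).perf
        (by rwa [card_cj]) (h1.trans hc) (hS p hp hp2)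
    · exact FT.R2.pRankLE_of_not_dvd hd
  refine ⟨h1, ?_, h2⟩
  have h3 : L ⊓ 𝐂[L] = ⊥ := by
    by_contra hne
    obtain ⟨p, hp, hd⟩ := Nat.exists_prime_and_dvd (fun e => hne (eq_bot_of_card_eq _ e))
    haveI := Fact.mk hp
    obtain ⟨⟨z, hz⟩, hz1⟩ := exists_prime_orderOf_dvd_card' p hd
    rw [← orderOf_coe] at hz1
    have hzp : z ^ p = 1 := hz1 ▸ pow_orderOf_eq_one z
    have hzc : Nat.card (zpowers z) = p := by rw [Nat.card_zpowers, hz1]
    by_cases hp2 : p = 2
    · subst hp2
      have h4 : SnIn (zpowers z) ⊤ := SnIn.step (zpowers_le_of_mem hz.1)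
        ((le_centralizer_iff.1 (zpowers_le_of_mem hz.2)).trans (centralizer_le_normalizer _)) h.sn
      have h5 := CP.le_pCoreOf_of_snIn h4 (isEA_isPGroup (isEA_zpowers hzp))
      rw [Amb.pCoreOf_top, hO, le_bot_iff] at h5
      rw [h5, card_bot] at hzc
      omega
    · obtain ⟨E, e1, e2, e3⟩ := exists_EA_sup_of_perfect (k := 1) hp2 (isEA_zpowers hzp)
        (by rw [hzc, pow_one]) h.perf (hd.trans (card_dvd_of_le inf_le_left))
        (zpowers_le_of_mem hz.2)
      have := FT.R2.pRankLE_iff.1 (h2 p hp hp2) E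
        (e1.trans (sup_le (zpowers_le_of_mem hz.1) le_rfl)) e2
      exact (this.trans_lt (by simpa using FT.R2.lt_sq (p := p))).not_ge e3
  have h4 : center L = ⊥ := by
    rw [← map_center_subtype, map_eq_bot_iff_of_injective _ L.subtype_injective] at h3
    exact h3
  haveI := h1.2.2
  exact (QuotientGroup.quotientMulEquivOfEq h4).trans QuotientGroup.quotientBot |>.symm.isSimpleGroup

end Cfsg.Agent.QT
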