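import Mathlib
import Cfsg.Agent.QT.Struct

/-!
The members of `Ξ(G, T)` inside a strongly quasithin group with `O₂ = 1`: either normal, or inside
`⟨K, T⟩` for a component `K`.
-/

set_option autoImplicit false

namespace Cfsg.Agent.QT

open Subgroup Cfsg Cfsg.Agent.PLocal Cfsg.Agent.PLocal.Amb Cfsg.Agent.Grp
open scoped commutatorElement

variable {G : Type*} [Group G] [Finite G]

/-- The properties of a member `X` of `Ξ(G, T)` that are used; `Q = O₂(X)`, `Φ = O_{2,Φ}(X)`,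
`P` a Sylow `p`-subgroup of `X`. -/
structure XiData (p : ℕ) (X Φ Q P T : Subgroup G) : Prop where
  hp2 : p ≠ 2
  TX : T ≤ 𝐍[X]
  TΦ : T ≤ 𝐍[Φ]
  XΦ : X ≤ 𝐍[Φ]
  ΦX : Φ ≤ X
  irr : ∀ Y, Φ ≤ Y → Y ≤ X → T ≤ 𝐍[Y] → Y = Φ ∨ Y = X
  res : 𝐎[2, X] = X
  frat : ∀ N, N ≤ X → X ≤ Φ ⊔ N → X ≤ Q ⊔ N
  noncyc : ∀ g ∈ X, ¬ X ≤ Φ ⊔ zpowers g
  comm : ⁅X, X⁆ ≤ Φ
  Qp : IsPGroup 2 Q
  QΦ : Q ≤ Φ
  XQ : X ≤ 𝐍[Q]
  Pp : IsPGroup p P
  PX : P ≤ X
  QP : X ≤ Q ⊔ P
  cardP : Nat.card P ≤ p ^ 3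

omit [Finite G] in
theorem inf_sup_le_of_le {X N Φ Z : Subgroup G} (hN : Z ≤ 𝐍[N]) (hZ : Z ≤ X) (h : X ⊓ N ≤ Φ) :
    X ⊓ (N ⊔ Z) ≤ Φ ⊔ Z := by
  rw [inf_comm, sup_comm N, sup_inf_of_le_normalizer hZ hN, sup_comm, inf_comm]
  exact sup_le_sup_right h Z

theorem exists_le_sup_zpowers_of_card {p : ℕ} [hp : Fact p.Prime] {X Φ : Subgroup G}
    (hX : IsPGroup p X) (hΦ : Φ ≤ X) (hc : Nat.card X < Nat.card Φ * p ^ 2) :
    ∃ g ∈ X, X ≤ Φ ⊔ zpowers g := by
  by_cases h : X ≤ Φ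
  · exact ⟨1, one_mem _, h.trans le_sup_left⟩
  obtain ⟨g, hg, hg'⟩ := SetLike.not_le_iff_exists.1 h
  refine ⟨g, hg, ?_⟩
  have h1 : Φ ⊔ zpowers g ≤ X := sup_le hΦ (zpowers_le_of_mem hg)
  obtain ⟨a, ha⟩ := (hX.to_le hΦ).exists_card_eq
  obtain ⟨b, hb⟩ := hX.exists_card_eq
  have h2 : p ^ (a + 1) ≤ Nat.card (Φ ⊔ zpowers g : Subgroup G) := by
    refine FT.R2.pow_succ_le_card (hX.to_le h1) (ha ▸ lt_of_le_of_ne (card_le_of_le le_sup_left) ?_)
    intro e
    exact hg' (eq_of_le_of_card_ge le_sup_left e.ge ▸ mem_sup_right (mem_zpowers g))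
  rw [ha, hb, ← pow_add] at hc
  have h3 : b ≤ a + 1 := by
    have := (Nat.pow_lt_pow_iff_right hp.out.one_lt).1 hc
    omega
  exact (eq_of_le_of_card_ge h1 (hb ▸ (Nat.pow_le_pow_right hp.out.pos h3).trans h2)).ge

theorem mem_of_EA_of_rank {p : ℕ} [hp : Fact p.Prime] (hr : PRankLE p 2 G) {E : Subgroup G}
    (hE : IsElementaryAbelian p E) (hc : p ^ 2 ≤ Nat.card E) {x : G} (hx : x ^ p = 1)
    (hxc : x ∈ 𝐂[E]) : x ∈ E := by
  by_contra hxE
  obtain ⟨h1, h2⟩ := lt_card_sup_zpowers hE hc hx hxc hxE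
  exact not_rank_of_EA h1 h2 hr

theorem exists_normal_EA {p : ℕ} [hp : Fact p.Prime] (hp2 : p ≠ 2) {R : Subgroup G}
    (hR : IsPGroup p R) (hc : ¬ IsCyclic R) :
    ∃ E ≤ R, R ≤ 𝐍[E] ∧ IsElementaryAbelian p E ∧ Nat.card E = p ^ 2 := by
  obtain ⟨A, -, h2, h3, h4⟩ := FT.R2.exists_normal_elem_le hp2 hR ⊤
    (fun e => hc (isCyclic_of_surjective _ topEquiv.surjective))
  exact ⟨A.map R.subtype, map_subtype_le A, Amb.le_normalizer_map_subtype A, isEA_map h3 _,
    by rw [card_map_of_injective A R.subtype_injective, h4]⟩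

namespace XiData

variable {p : ℕ} [hp : Fact p.Prime] {X Φ Q P T : Subgroup G}

omit [Finite G] hp in
theorem not_le' (h : XiData p X Φ Q P T) : ¬ X ≤ Φ := fun e =>
  h.noncyc 1 (one_mem _) (e.trans le_sup_left)

omit [Finite G] hp in
theorem eq_or_le (h : XiData p X Φ Q P T) {N : Subgroup G} (hN : N ≤ X) (hX : X ≤ 𝐍[N])
    (hT : T ≤ 𝐍[N]) : X ≤ N ∨ N ≤ Φ := by
  rcases h.irr (Φ ⊔ N) le_sup_left (sup_le h.ΦX hN) (Amb.le_normalizer_sup h.TΦ hT) with e | e
  · exact Or.inr (le_sup_right.trans e.le)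
  · left
    have h1 := h.frat N hN e.ge
    rw [sup_comm] at h1
    rw [← h.res]
    exact (pRes_mono h1).trans (pRes_sup_le h.Qp (h.QΦ.trans (h.ΦX.trans hX)))

omit [Finite G] hp in
theorem le_or_inf_le (h : XiData p X Φ Q P T) (N : Subgroup G) [N.Normal] : X ≤ N ∨ X ⊓ N ≤ Φ :=
  (h.eq_or_le inf_le_left (Amb.le_normalizer_inf le_normalizer le_normalizer_of_normal)
    (Amb.le_normalizer_inf h.TX le_normalizer_of_normal)).imp_left fun e => e.trans inf_le_right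

omit [Finite G] hp in
theorem le_ker_of_cyclic (h : XiData p X Φ Q P T) {A : Type*} [Group A] (ψ : G →* A)
    (hc : IsCyclic (P.map ψ)) : X ≤ ψ.ker := by
  refine (h.le_or_inf_le ψ.ker).resolve_right fun e => ?_
  obtain ⟨y, hy⟩ := IsCyclic.exists_generator (α := P.map ψ)
  obtain ⟨g, hg, h1⟩ := exists_le_ker_sup_zpowers ψ (B := P) (y := y) fun x hx => by
    obtain ⟨k, hk⟩ := hy ⟨x, hx⟩
    exact ⟨k, by simpa using congrArg Subtype.val hk⟩
  refine h.noncyc g (h.PX hg) (h.QP.trans (sup_le (h.QΦ.trans le_sup_left) ?_))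
  exact (le_inf h.PX h1).trans
    (inf_sup_le_of_le le_normalizer_of_normal (zpowers_le_of_mem (h.PX hg)) e)

omit [Finite G] in
theorem le_ker_rho (h : XiData p X Φ Q P T) {q : ℕ} [Fact q.Prime]
    (ρ : G →* GL (Fin 2) (ZMod q)) : X ≤ ρ.ker := by
  have h1 := h.le_ker_of_cyclic ((Matrix.GeneralLinearGroup.det).comp ρ) inferInstance
  refine h.le_ker_of_cyclic ρ (isCyclic_of_le_ker_det h.hp2 (h.Pp.map ρ) ?_)
  rw [map_le_iff_le_comap, MonoidHom.comap_ker]
  exact h.PX.trans h1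

theorem le_fitting (h : XiData p X Φ Q P T) (hS : IsStronglyQuasithin G) (hO : pCore 2 G = ⊥)
    (hE : X ≤ 𝐂[layer G]) : X ≤ fittingSubgroup G := by
  have key : ∀ q : ℕ, ∃ N : Subgroup G, N.Normal ∧ X ≤ N ∧
      (q.Prime → ∀ x ∈ N, (orderOf x).Coprime q → x ∈ 𝐂[pCore q G]) := by
    intro q
    by_cases hq : q.Prime
    · haveI := Fact.mk hq
      by_cases hq2 : q = 2
      · subst hq2
        exact ⟨⊤, inferInstance, le_top, fun _ x _ _ => by
          rw [hO]; exact le_centralizer_iff.1 bot_le (mem_top x)⟩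
      · obtain ⟨ρ, hρ⟩ := exists_rho hq2 (hS q hq hq2)
        exact ⟨ρ.ker, inferInstance, h.le_ker_rho ρ, fun _ => hρ⟩
    · exact ⟨⊤, inferInstance, le_top, fun e => absurd e hq⟩
  choose N hN1 hN2 hN3 using key
  set C := 𝐂[layer G] ⊓ ⨅ q, N q with hC
  haveI : (⨅ q, N q).Normal := normal_iInf_normal hN1
  have hCN : ∀ q, C ≤ N q := fun q => inf_le_right.trans (iInf_le N q)
  have h1 : Group.IsSolvable C := by
    by_contra hns
    obtain ⟨L, l1, l2⟩ := exists_isCC_le_of_not_solvable hns (SnIn.of_normal (V := ⊤) le_top)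
    have l3 : IsComponent L := l2.isComponent_of_le_centralizer fun x hx =>
      FT.R2.mem_cent_fitting fun q hq => by
        haveI := Fact.mk hq
        exact l2.le_centralizer_pCore (hN3 q hq) (l1.trans (hCN q)) hx
    exact qsS_not_le_centralizer l3.2
      ((l1.trans inf_le_left).trans (centralizer_anti (comp_le_layer l3)))
  have h2 := FT.R2.le_fitting_of_cent_pCore (G := C) ⊤ fun q hq x _ hx => by
    have h3 := hN3 q hq x (hCN q x.2) (by rwa [orderOf_coe])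
    intro y hy
    have h4 : (y : G) ∈ pCore q G :=
      CP.pCoreOf_le_pCore_of_subnormal (Normal.isSubnormal inferInstance) (CP.mem_pCoreOf.2 hy)
    exact Subtype.ext (h3 y h4)
  have h3 : C ≤ fittingSubgroup G :=
    Grp.le_fitting inferInstance (fitting_eq_top_iff.1 (top_le_iff.1 h2))
  exact (le_inf hE (le_iInf hN2)).trans h3

theorem normal_of_le_pCore (h : XiData p X Φ Q P T) (hr : PRankLE p 2 G) (hX : X ≤ pCore p G)
    (hc : Nat.card X ≤ p ^ 3) : X.Normal := by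
  have hR := CP.isPGroup_pCore p G
  have hXp : IsPGroup p X := hR.to_le hX
  have h1 : Nat.card Φ * p ^ 2 ≤ Nat.card X := by
    by_contra hlt
    obtain ⟨g, hg, e⟩ := exists_le_sup_zpowers_of_card hXp h.ΦX (not_le.1 hlt)
    exact h.noncyc g hg e
  have hp2 : 0 < p ^ 2 := pow_pos hp.out.pos 2
  have h2 : Nat.card Φ ≤ p := by
    have := h1.trans hc
    rw [pow_succ' p 2] at this
    exact Nat.le_of_mul_le_mul_right this hp2
  have hnc : ¬ IsCyclic X := fun e => by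
    obtain ⟨g, hg⟩ := IsCyclic.exists_generator (α := X)
    refine h.noncyc g g.2 fun x hx => mem_sup_right ?_
    obtain ⟨k, hk⟩ := hg ⟨x, hx⟩
    exact ⟨k, by simpa using congrArg Subtype.val hk⟩
  have hbig : ∀ E : Subgroup G, Nat.card E = p ^ 2 → ¬ E ≤ Φ := fun E e1 e2 =>
    (FT.R2.lt_sq (p := p)).not_ge (e1 ▸ (card_le_of_le e2).trans h2)
  -- exponent `p`
  have h3 : X ≤ omegaOne p X := by
    obtain ⟨E, e1, -, e3, e4⟩ := exists_normal_EA h.hp2 hXp hnc
    exact (h.eq_or_le (omegaOne_le X) (le_normalizer.trans (normalizer_le_normalizer_omegaOne X))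
      (h.TX.trans (normalizer_le_normalizer_omegaOne X))).resolve_right
      fun e => hbig E e4 ((isEA_le_omegaOne e3 e1).trans e)
  have h4 : Φ ≤ 𝐂[X] := by
    by_cases hb : Φ = ⊥
    · rw [hb]; exact bot_le
    · have h5 := Amb.inf_centralizer_ne_bot hXp (hXp.to_le h.ΦX) h.XΦ hb
      have h6 := FT.R2.prime_le_card ((hXp.to_le h.ΦX).to_inf_left) h5
      exact inf_eq_left.1 (eq_of_le_of_card_ge inf_le_left (h2.trans h6))
  have h5 : ∀ x ∈ X, x ^ p = 1 := by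
    intro x hx
    have h6 : Subgroup.upperCentralSeries X 2 = ⊤ := by
      rw [eq_top_iff]
      intro a _
      rw [FT.R2.mem_upperCentralSeries_two_iff]
      intro y z
      refine Subtype.ext ?_
      exact (h4 (h.comm (commutator_mem_commutator a.2 y.2)) z z.2).symm
    have h7 : (⟨x, hx⟩ : X) ∈ omegaOne p (Subgroup.upperCentralSeries X 2) := by
      rw [h6, ← mem_map_subtype, map_omegaOne _ X.subtype_injective, ← MonoidHom.range_eq_map,
        range_subtype]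
      exact h3 hx
    exact congrArg Subtype.val
      (FT.R2.pow_eq_one_of_mem_omega_zTwo (hp.out.odd_of_ne_two h.hp2) h7)
  by_cases h6 : Nat.card X ≤ p ^ 2
  · have h7 : Nat.card X = p ^ 2 := le_antisymm h6 (FT.R2.sq_le_card_of_not_isCyclic hXp hnc)
    have h8 := FT.R2.isEA_of_card_sq h7 h5
    set Z := omegaOne p (pCore p G ⊓ 𝐂[pCore p G]) with hZ
    haveI : Z.Normal := omegaOne_normal _
    have h9 : Z ≤ X := omegaOne_le_iff.2 fun x hx hx' =>
      mem_of_EA_of_rank hr h8 h7.ge hx' (centralizer_anti hX hx.2)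
    rcases h.le_or_inf_le Z with e | e
    · rw [← le_antisymm h9 e]; infer_instance
    · exfalso
      have h10 : pCore p G ≠ ⊥ := fun e => h.not_le' ((hX.trans e.le).trans bot_le)
      have h11 : Z ≠ ⊥ := omegaOne_ne_bot_of_isPGroup hR.to_inf_left
        (Amb.inf_centralizer_ne_bot hR hR le_normalizer h10)
      rw [h7] at h1
      have h12 : Nat.card Φ ≤ 1 := Nat.le_of_mul_le_mul_right (by rwa [one_mul]) hp2
      rw [inf_eq_right.2 h9, (card_le_one_iff_eq_bot Φ).1 h12] at e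
      exact h11 (le_bot_iff.1 e)
  · have h7 : p ^ 3 ≤ Nat.card X := FT.R2.pow_succ_le_card hXp (not_le.1 h6)
    set W := sSup {E : Subgroup G | E ≤ pCore p G ∧ pCore p G ≤ 𝐍[E] ∧
      IsElementaryAbelian p E ∧ Nat.card E = p ^ 2} with hW
    haveI : W.Normal := normalizer_eq_top_iff.1 (top_le_iff.1 (le_normalizer_sSup
      fun g _ E ⟨e1, e2, e3, e4⟩ => by
        refine ⟨cj_le_of_mem_normalizer e1 (le_normalizer_of_normal (mem_top g)), ?_,
          isEA_map e3 _, (card_cj g E).trans e4⟩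
        have := cj_mono g e2
        rwa [cj_of_normal, ← normalizer_cj] at this))
    have h8 : W ≤ X := by
      refine sSup_le fun E ⟨e1, e2, e3, e4⟩ => ?_
      have h9 := FT.R2.relIndex_centralizer_le_of_card_sq hXp e4 (hX.trans e2)
      have h10 := PLocal.card_inf_mul_relIndex 𝐂[E] X
      have h11 : 𝐂[E] ⊓ X ≤ E := fun x hx => mem_of_EA_of_rank hr e3 e4.ge (h5 x hx.2) hx.1
      have h12 : p ^ 2 ≤ Nat.card (𝐂[E] ⊓ X : Subgroup G) := by
        refine Nat.le_of_mul_le_mul_right ?_ hp.out.pos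
        rw [← pow_succ]
        exact h7.trans (h10 ▸ Nat.mul_le_mul_left _ h9)
      rw [← eq_of_le_of_card_ge h11 (e4 ▸ h12)]
      exact inf_le_right
    rcases h.le_or_inf_le W with e | e
    · rw [← le_antisymm h8 e]; infer_instance
    · exfalso
      obtain ⟨E, e1, e2, e3, e4⟩ := exists_normal_EA h.hp2 hR
        fun e => hnc (isCyclic_of_injective _ (inclusion_injective hX))
      rw [inf_eq_right.2 h8] at e
      exact hbig E e4 ((le_sSup (s := {E : Subgroup G | E ≤ pCore p G ∧ pCore p G ≤ 𝐍[E] ∧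
        IsElementaryAbelian p E ∧ Nat.card E = p ^ 2}) ⟨e1, e2, e3, e4⟩).trans e)

theorem normal_of_le_centralizer (h : XiData p X Φ Q P T) (hS : IsStronglyQuasithin G)
    (hO : pCore 2 G = ⊥) (hE : X ≤ 𝐂[layer G]) : X.Normal := by
  have h1 := h.le_fitting hS hO hE
  have h2 : Q = ⊥ := le_bot_iff.1 (hO ▸ le_pCore_of_le_fitting h.Qp (h.QΦ.trans (h.ΦX.trans h1)))
  have h3 : X = P := le_antisymm (by simpa [h2] using h.QP) h.PX
  exact h.normal_of_le_pCore (hS p hp.out h.hp2) (le_pCore_of_le_fitting (h3 ▸ h.Pp) h1)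
    (h3 ▸ h.cardP)

end XiData

end Cfsg.Agent.QT
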