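import Mathlib
import Cfsg.Agent.QT.Xi
import Cfsg.Agent.Grp.PFrattini

/-!
The members of `Ξ(G, T)`: the case of a nontrivial action on a component, transfer to `G / O₂(G)`.
-/

set_option autoImplicit false

namespace Cfsg.Agent.QT

open Subgroup Cfsg Cfsg.Agent.PLocal Cfsg.Agent.PLocal.Amb Cfsg.Agent.Grp
open scoped commutatorElement

variable {G : Type*} [Group G]

/-- The outer action of `N(K)` on `K / Z(K)`. -/
def outHom (K : Subgroup G) : 𝐍[K] →* Out (K ⧸ center K) :=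
  (QuotientGroup.mk' (Inn (K ⧸ center K))).comp (automizerHom K 𝐍[K] le_rfl)

theorem mem_of_outHom {K : Subgroup G} (hK : ⁅K, K⁆ = K) {x : 𝐍[K]} (h : outHom K x = 1) :
    (x : G) ∈ K ⊔ 𝐂[K] := by
  rw [outHom, MonoidHom.comp_apply, QuotientGroup.mk'_apply, QuotientGroup.eq_one_iff] at h
  obtain ⟨k, hk⟩ := h
  obtain ⟨k, rfl⟩ := QuotientGroup.mk_surjective k
  have h3 : automizerHom K 𝐍[K] le_rfl ⟨k, le_normalizer k.2⟩ =
      MulAut.conj (QuotientGroup.mk k : K ⧸ center K) := by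
    ext y
    obtain ⟨y, rfl⟩ := QuotientGroup.mk_surjective y
    rw [automizerHom_mk]
    rfl
  have h4 : (⟨k, le_normalizer k.2⟩ : 𝐍[K])⁻¹ * x ∈ (automizerHom K 𝐍[K] le_rfl).ker := by
    rw [MonoidHom.mem_ker, map_mul, map_inv, h3, hk, inv_mul_cancel]
  rw [automizerHom_ker _ hK, mem_subgroupOf] at h4
  have : (x : G) = k * ((k : G)⁻¹ * x) := by group
  rw [this]
  exact mul_mem (mem_sup_left k.2) (mem_sup_right h4)

theorem inf_le_sup_centralizer {K L : Subgroup G} (h : K ≤ 𝐂[L]) :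
    (K ⊔ 𝐂[K]) ⊓ (L ⊔ 𝐂[L]) ≤ (K ⊔ L) ⊔ 𝐂[K ⊔ L] := by
  rintro x ⟨h1, h2⟩
  obtain ⟨k, hk, c, hc, rfl⟩ := (Amb.mem_sup_of_le_normalizer_left
    (centralizer_le_normalizer' K)).1 h1
  have h3 : c ∈ L ⊔ 𝐂[L] := (mul_mem_cancel_left (mem_sup_right (h hk))).1 h2
  obtain ⟨l, hl, d, hd, rfl⟩ := (Amb.mem_sup_of_le_normalizer_left
    (centralizer_le_normalizer' L)).1 h3
  have h4 : d ∈ 𝐂[K] := (mul_mem_cancel_left (le_centralizer_iff.1 h hl)).1 hc
  refine mul_mem (mem_sup_left (mem_sup_left hk))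
    (mul_mem (mem_sup_left (mem_sup_right hl)) (mem_sup_right ?_))
  rw [Amb.centralizer_sup]
  exact ⟨h4, hd⟩

namespace XiData

variable [Finite G] {p : ℕ} [hp : Fact p.Prime] {X Φ Q P T : Subgroup G}

omit hp in
theorem not_invariant (h : XiData p X Φ Q P T) {g : G} (hg : g ∈ X) (hg' : g ∉ Φ) :
    ¬ ∀ s ∈ T, s * g * s⁻¹ ∈ Φ ⊔ zpowers g := by
  intro hs
  have h1 : T ≤ 𝐍[Φ ⊔ zpowers g] := by
    rw [le_normalizer_iff_cj]
    intro s hs'
    rw [cj_sup, Amb.cj_of_mem_normalizer (h.TΦ hs'), MonoidHom.map_zpowers]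
    exact sup_le le_sup_left (zpowers_le_of_mem (hs s hs'))
  rcases h.irr _ le_sup_left (sup_le h.ΦX (zpowers_le_of_mem hg)) h1 with e | e
  · exact hg' (e ▸ mem_sup_right (mem_zpowers g))
  · exact h.noncyc g hg e.ge

omit hp in
theorem not_index_two (h : XiData p X Φ Q P T) {H : Subgroup G}
    (h2 : ∀ a ∉ H, ∀ b ∉ H, a⁻¹ * b ∈ H) (hc : ⁅T ⊓ H, X⁆ ≤ Φ) : False := by
  obtain ⟨x, hx, hx'⟩ := SetLike.not_le_iff_exists.1 h.not_le'
  have h0 : ∀ s ∈ T, s ∈ H → ∀ g ∈ X, s * g * s⁻¹ ∈ Φ ⊔ zpowers g := fun s hs hs' g hg => by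
    have : s * g * s⁻¹ = ⁅s, g⁆ * g := by simp [commutatorElement_def]
    rw [this]
    exact mul_mem (mem_sup_left (hc (commutator_mem_commutator ⟨hs, hs'⟩ hg)))
      (mem_sup_right (mem_zpowers g))
  have h1 : ∀ t ∈ T, t ∉ H → ∀ g ∈ X, t * g * t⁻¹ ∈ Φ ⊔ zpowers g →
      ∀ s ∈ T, s * g * s⁻¹ ∈ Φ ⊔ zpowers g := fun t ht ht' g hg hgt s hs => by
    by_cases hs' : s ∈ H
    · exact h0 s hs hs' g hg
    · have e1 : cj(t, Φ ⊔ zpowers g) ≤ Φ ⊔ zpowers g := by
        rw [cj_sup, Amb.cj_of_mem_normalizer (h.TΦ ht), MonoidHom.map_zpowers]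
        exact sup_le le_sup_left (zpowers_le_of_mem hgt)
      have e2 := e1 (conj_mem_cj t (h0 _ (mul_mem (inv_mem ht) hs) (h2 t ht' s hs') g hg))
      have e3 : t * (t⁻¹ * s * g * (t⁻¹ * s)⁻¹) * t⁻¹ = s * g * s⁻¹ := by group
      rwa [e3] at e2
  by_cases hT : ∃ t ∈ T, t ∉ H
  swap
  · push Not at hT
    exact h.not_invariant hx hx' fun s hs => h0 s hs (hT s hs) x hx
  obtain ⟨t, ht, ht'⟩ := hT
  have hxt : t * x * t⁻¹ ∈ X := Amb.conj_mem_of_mem_normalizer (h.TX ht) hx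
  by_cases hy : x * (t * x * t⁻¹) ∈ Φ
  · refine h.not_invariant hx hx' (h1 t ht ht' x hx ?_)
    have : t * x * t⁻¹ = x⁻¹ * (x * (t * x * t⁻¹)) := by group
    rw [this]
    exact mul_mem (mem_sup_right (inv_mem (mem_zpowers x))) (mem_sup_left hy)
  · refine h.not_invariant (mul_mem hx hxt) hy (h1 t ht ht' _ (mul_mem hx hxt) ?_)
    have ht2 : t * t ∈ H := by
      have := h2 t⁻¹ (fun e => ht' (by simpa using inv_mem e)) t ht'
      rwa [inv_inv] at this
    have e1 : ⁅t * t, x⁆ ∈ Φ := hc (commutator_mem_commutator ⟨mul_mem ht ht, ht2⟩ hx)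
    have e2 : ⁅t * x * t⁻¹, x⁆ ∈ Φ := h.comm (commutator_mem_commutator hxt hx)
    have e3 : t * (x * (t * x * t⁻¹)) * t⁻¹ = ((t * x * t⁻¹) * ⁅t * t, x⁆ * (t * x * t⁻¹)⁻¹) *
        ⁅t * x * t⁻¹, x⁆ * (x * (t * x * t⁻¹)) := by
      simp only [commutatorElement_def]; group
    rw [e3]
    exact mul_mem (mem_sup_left (mul_mem (Amb.conj_mem_of_mem_normalizer (h.XΦ hxt) e1) e2))
      (mem_sup_right (mem_zpowers _))

theorem not_le_sup_centralizer (h : XiData p X Φ Q P T) (hr : PRankLE p 2 G) {N : Subgroup G}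
    [N.Normal] (hN : ⁅N, N⁆ = N) (h1 : ¬ X ≤ N) (h2 : ¬ X ≤ 𝐂[N]) : ¬ X ≤ N ⊔ 𝐂[N] := by
  intro e
  have hd : p ∣ Nat.card N := by
    by_contra hd
    apply h2
    have h3 : P.map (QuotientGroup.mk' 𝐂[N]) ≤ N.map (QuotientGroup.mk' 𝐂[N]) := by
      rw [map_le_iff_le_comap, comap_map_eq, QuotientGroup.ker_mk']
      exact h.PX.trans e
    have h4 : P.map (QuotientGroup.mk' 𝐂[N]) = ⊥ := by
      by_contra hne
      obtain ⟨k, hk⟩ := (h.Pp.map (QuotientGroup.mk' 𝐂[N])).exists_card_eq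
      rcases k with _ | k
      · exact hne (eq_bot_of_card_eq _ (by simpa using hk))
      · exact hd (((dvd_pow_self p k.succ_ne_zero).trans (hk ▸ card_dvd_of_le h3)).trans
          (card_map_dvd _ _))
    have := h.le_ker_of_cyclic (QuotientGroup.mk' 𝐂[N]) (by rw [h4]; infer_instance)
    rwa [QuotientGroup.ker_mk'] at this
  obtain ⟨S, hS⟩ := exists_isSyl p 𝐂[N]
  haveI := isCyclic_of_le_centralizer h.hp2 hr hS.pgrp hN hd hS.le
  have h3 : P.map (QuotientGroup.mk' N) ≤ (𝐂[N]).map (QuotientGroup.mk' N) := by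
    rw [map_le_iff_le_comap, comap_map_eq, QuotientGroup.ker_mk', sup_comm]
    exact h.PX.trans e
  obtain ⟨g, -, hg⟩ := (hS.map (QuotientGroup.mk' N)).exists_le_cj (h.Pp.map _) h3
  haveI : IsCyclic (S.map (QuotientGroup.mk' N)) :=
    isCyclic_of_surjective _ ((QuotientGroup.mk' N).subgroupMap_surjective S)
  haveI : IsCyclic cj(g, S.map (QuotientGroup.mk' N)) :=
    isCyclic_of_surjective _ (MonoidHom.subgroupMap_surjective _ _)
  have := h.le_ker_of_cyclic (QuotientGroup.mk' N)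
    (isCyclic_of_injective _ (inclusion_injective hg))
  rw [QuotientGroup.ker_mk'] at this
  exact h1 this

theorem normal_or (h : XiData p X Φ Q P T) (hS : IsStronglyQuasithin G) (hO : pCore 2 G = ⊥)
    (hT : TameComp G) (hTs : IsSyl 2 T ⊤)
    (hA : ∀ K : Subgroup G, IsComponent K → ¬ K.Normal → ∀ a b : Out (K ⧸ center K), a * b = b * a) :
    X.Normal ∨ ∃ K, IsComponent K ∧ X ≤ K ⊔ T := by
  by_cases hE : X ≤ 𝐂[layer G]
  · exact Or.inl (h.normal_of_le_centralizer hS hO hE)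
  right
  obtain ⟨K, hK, hXK⟩ : ∃ K : Subgroup G, IsComponent K ∧ ¬ X ≤ 𝐂[K] := by
    by_contra hcon
    push Not at hcon
    exact hE (le_centralizer_iff.1 (layer_le_iff.2 fun L hL => le_centralizer_iff.1 (hcon L hL)))
  have cK := isCC_of_isComponent hK
  refine ⟨K, hK, ?_⟩
  set N := CP.ncl K ⊤ with hN
  haveI : N.Normal := by rw [hN, CP.ncl_top]; infer_instance
  have hKN : K ≤ N := CP.le_ncl K ⊤
  have hNp : ⁅N, N⁆ = N := le_antisymm (commutator_le_self N)
    (CP.ncl_le (cK.perf.ge.trans (commutator_mono hKN hKN)) le_normalizer_of_normal)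
  by_cases h1 : X ≤ N
  · rw [hN, ← cK.ncl_eq hS hTs] at h1
    exact h1.trans (CP.ncl_le le_sup_left (le_sup_right.trans le_normalizer))
  exfalso
  have h2 : ¬ X ≤ 𝐂[N] := fun e => hXK (e.trans (centralizer_anti hKN))
  have h3 := (h.le_or_inf_le (N ⊔ 𝐂[N])).resolve_left
    (h.not_le_sup_centralizer (hS p hp.out h.hp2) hNp h1 h2)
  by_cases hn : K.Normal
  · have e : N = K := CP.ncl_eq_self le_normalizer_of_normal
    let ψ : G →* Out (K ⧸ center K) :=
      (outHom K).comp ((MonoidHom.id G).codRestrict 𝐍[K] fun x => le_normalizer_of_normal (mem_top x))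
    have h4 := TameSub.inf_comap_le ψ h.ΦX h.TX h.TΦ h.XΦ h.irr h.noncyc
      (fun e => h.not_le' (h.res ▸ pRes_le_of_pow e))
      ((inf_le_inf_left X fun x hx => e ▸ mem_of_outHom cK.perf hx).trans h3) (hT K hK)
    rw [comap_top, inf_top_eq] at h4
    exact h.not_le' h4
  · haveI := cK.normalizer_normal hS
    obtain ⟨a, ha⟩ : ∃ a, a ∉ 𝐍[K] := by
      by_contra hcon
      push Not at hcon
      exact hn (normalizer_eq_top_iff.1 (eq_top_iff.2 fun x _ => hcon x))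
    have h4 : ⁅𝐍[K], 𝐍[K]⁆ ≤ K ⊔ 𝐂[K] := by
      rw [commutator_le]
      intro x hx y hy
      refine mem_of_outHom cK.perf (x := ⁅(⟨x, hx⟩ : 𝐍[K]), ⟨y, hy⟩⁆) ?_
      rw [map_commutatorElement, commutatorElement_eq_one_iff_mul_comm]
      exact hA K hK hn _ _
    have h5 : ⁅𝐍[K], 𝐍[K]⁆ ≤ cj(a, K) ⊔ 𝐂[cj(a, K)] := by
      have := cj_mono a h4
      rwa [cj_of_normal, cj_sup, ← centralizer_cj] at this
    have h6 : K ≤ 𝐂[cj(a, K)] := commutator_eq_bot_iff_le_centralizer.1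
      (cK.commute hS hO (cK.cj_top a) fun e => ha (cj_eq_iff.1 e.symm))
    have h7 : N = K ⊔ cj(a, K) := by
      refine le_antisymm (CP.ncl_le_iff.2 fun g _ => ?_) (sup_le hKN (CP.cj_le_ncl K (mem_top a)))
      by_cases hg : g ∈ 𝐍[K]
      · rw [Amb.cj_of_mem_normalizer hg]; exact le_sup_left
      · have := Amb.cj_of_mem_normalizer (cK.two_conj hS ha hg)
        rw [cj_mul] at this
        rw [← cj_cj_inv a cj(g, K), this]
        exact le_sup_right
    have h8 : X ≤ 𝐍[K] := h.res ▸ cK.pRes_le_normalizer hS X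
    refine h.not_index_two (H := 𝐍[K]) (fun a ha b hb => cK.two_conj hS ha hb)
      ((le_inf ?_ ?_).trans h3)
    · exact le_normalizer_iff_commutator_le_right.1 (inf_le_left.trans h.TX)
    · rw [h7]
      exact (commutator_mono inf_le_right h8).trans ((le_inf h4 h5).trans (inf_le_sup_centralizer h6))

omit [Finite G] hp in
theorem map (h : XiData p X Φ Q P T) {G' : Type*} [Group G'] [Finite G] (f : G →* G')
    (hk : X ⊓ f.ker ≤ Q) : XiData p (X.map f) (Φ.map f) (Q.map f) (P.map f) (T.map f) := by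
  have hn : ∀ {A B : Subgroup G}, A ≤ 𝐍[B] → A.map f ≤ 𝐍[B.map f] := fun e =>
    (map_mono e).trans (le_normalizer_map _)
  have hp : ∀ {Y : Subgroup G}, Φ ≤ Y → Y ≤ X → X.map f ≤ Y.map f → X ≤ Y := fun {Y} e1 e2 e3 => by
    rw [map_le_iff_le_comap, comap_map_eq] at e3
    have := sup_inf_of_le_normalizer (B := f.ker) e2 le_normalizer_of_normal
    rw [inf_eq_right.2 e3, inf_comm] at this
    exact this.le.trans (sup_le le_rfl (hk.trans (h.QΦ.trans e1)))
  refine ⟨h.hp2, hn h.TX, hn h.TΦ, hn h.XΦ, map_mono h.ΦX, fun Y e1 e2 e3 => ?_, ?_,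
    fun N e1 e2 => ?_, ?_, ?_, h.Qp.map f, map_mono h.QΦ, hn h.XQ, h.Pp.map f, map_mono h.PX, ?_,
    (Nat.le_of_dvd Nat.card_pos (card_map_dvd _ _)).trans h.cardP⟩
  · have := h.irr (Y.comap f ⊓ X) (le_inf (map_le_iff_le_comap.1 e1) h.ΦX) inf_le_right
      (Amb.le_normalizer_inf ((map_le_iff_le_comap.1 e3).trans (le_normalizer_comap f)) h.TX)
    rw [← map_comap_inf f e2]
    exact this.imp (congrArg _) (congrArg _)
  · refine le_antisymm (pRes_le _ _) ?_
    conv_lhs => rw [← h.res]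
    exact map_pRes_le f X
  · have e3 := h.frat (N.comap f ⊓ X) inf_le_right (hp le_sup_left (sup_le h.ΦX inf_le_right)
      (by rwa [Subgroup.map_sup, map_comap_inf f e1]))
    have := map_mono (f := f) e3
    rwa [Subgroup.map_sup, map_comap_inf f e1] at this
  · rintro _ ⟨g, hg, rfl⟩ e
    exact h.noncyc g hg (hp le_sup_left (sup_le h.ΦX (zpowers_le_of_mem hg))
      (by rwa [Subgroup.map_sup, MonoidHom.map_zpowers]))
  · rw [← map_commutator]
    exact map_mono h.comm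
  · rw [← Subgroup.map_sup]
    exact map_mono h.QP

omit [Finite G] hp in
theorem subgroupOf (h : XiData p X Φ Q P T) {M : Subgroup G} (hX : X ≤ M) (hT : T ≤ M) :
    XiData p (X.subgroupOf M) (Φ.subgroupOf M) (Q.subgroupOf M) (P.subgroupOf M)
      (T.subgroupOf M) := by
  have hn : ∀ {A B : Subgroup G}, A ≤ 𝐍[B] → A.subgroupOf M ≤ 𝐍[B.subgroupOf M] := fun e =>
    (comap_mono e).trans (le_normalizer_comap _)
  have hl : ∀ {A B : Subgroup M}, A.map M.subtype ≤ B.map M.subtype → A ≤ B :=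
    (map_le_map_iff_of_injective M.subtype_injective).1
  have eX := map_subgroupOf_eq_of_le hX
  have eΦ := map_subgroupOf_eq_of_le (h.ΦX.trans hX)
  have eQ := map_subgroupOf_eq_of_le (h.QΦ.trans (h.ΦX.trans hX))
  have eP := map_subgroupOf_eq_of_le (h.PX.trans hX)
  have eT := map_subgroupOf_eq_of_le hT
  refine ⟨h.hp2, hn h.TX, hn h.TΦ, hn h.XΦ, comap_mono h.ΦX, fun Y e1 e2 e3 => ?_, ?_,
    fun N e1 e2 => hl ?_, fun g hg e => ?_, hl ?_, Amb.isPGroup_subgroupOf h.Qp M, comap_mono h.QΦ,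
    hn h.XQ, Amb.isPGroup_subgroupOf h.Pp M, comap_mono h.PX, hl ?_, ?_⟩
  · have := h.irr (Y.map M.subtype) (eΦ ▸ map_mono e1) (eX ▸ map_mono e2)
      (eT ▸ (map_mono e3).trans (le_normalizer_map _))
    rw [← map_subtype_subgroupOf Y]
    exact this.imp (congrArg (Subgroup.subgroupOf · M)) (congrArg (Subgroup.subgroupOf · M))
  · apply map_injective M.subtype_injective
    rw [pRes_map_subtype, eX, h.res]
  · rw [Subgroup.map_sup, eX, eQ]
    refine h.frat _ (eX ▸ map_mono e1) ?_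
    have := map_mono (f := M.subtype) e2
    rwa [Subgroup.map_sup, eX, eΦ] at this
  · refine h.noncyc g hg ?_
    have := map_mono (f := M.subtype) e
    rwa [Subgroup.map_sup, eX, eΦ, MonoidHom.map_zpowers] at this
  · rw [map_commutator, eX, eΦ]
    exact h.comm
  · rw [Subgroup.map_sup, eX, eQ, eP]
    exact h.QP
  · rw [PLocal.card_subgroupOf_of_le (h.PX.trans hX)]
    exact h.cardP

end XiData

theorem exists_xiData [Finite G] {T X : Subgroup G} (h : X ∈ Xi T) :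
    ∃ (p : ℕ) (_ : Fact p.Prime) (P : Subgroup G),
      XiData p X (twoPhiCore X) (pCoreOf 2 X) P T := by
  obtain ⟨h1, h2, -, ⟨p, hp, hp2, h4⟩, h5⟩ := h
  haveI := Fact.mk hp
  let μ := QuotientGroup.mk' (pCore 2 X)
  have hμ : Function.Surjective μ := QuotientGroup.mk'_surjective _
  have hc : Nat.card (X ⧸ pCore 2 X) ∣ p ^ 3 := by
    rcases h4 with e | e
    · rw [e.1]; exact pow_dvd_pow p (by norm_num)
    · rw [e.1]
  have hP : IsPGroup p (X ⧸ pCore 2 X) := by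
    obtain ⟨k, -, hk⟩ := (Nat.dvd_prime_pow hp).1 hc
    exact IsPGroup.of_card hk
  obtain ⟨P, P1, P2⟩ := FT.R2.exists_isPGroup_map_eq μ hμ (hP.to_subgroup ⊤)
  haveI : ((frattini (X ⧸ pCore 2 X)).comap μ).Characteristic :=
    Characteristic.comap_quotient_mk inferInstance
  have hN : 𝐍[X] ≤ 𝐍[twoPhiCore X] := CP.normalizer_le_normalizer_map_subtype X _
  have eX : (⊤ : Subgroup X).map X.subtype = X := by rw [← MonoidHom.range_eq_map, range_subtype]
  have hsup : ∀ {N : Subgroup X}, N.map μ = ⊤ → X ≤ pCoreOf 2 X ⊔ N.map X.subtype := by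
    intro N e
    have := congrArg (fun A => (A.comap μ).map X.subtype) e
    simp only [comap_map_eq, comap_top, eX, Subgroup.map_sup] at this
    rw [QuotientGroup.ker_mk', sup_comm] at this
    exact this.ge
  have hfr : ∀ N, N ≤ X → X ≤ twoPhiCore X ⊔ N → (N.subgroupOf X).map μ = ⊤ := by
    intro N e1 e2
    refine eq_top_of_sup_le_frattini le_rfl ?_
    have e3 : (⊤ : Subgroup X) ≤ (frattini (X ⧸ pCore 2 X)).comap μ ⊔ N.subgroupOf X := by
      apply (map_le_map_iff_of_injective X.subtype_injective).1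
      rw [Subgroup.map_sup, eX, map_subgroupOf_eq_of_le e1]
      exact e2
    have := map_mono (f := μ) e3
    rw [Subgroup.map_sup, map_top_of_surjective μ hμ, map_comap_eq_self_of_surjective hμ,
      sup_comm] at this
    exact top_le_iff.1 this
  refine ⟨p, inferInstance, P.map X.subtype, hp2, h2, h2.trans hN, le_normalizer.trans hN,
    map_subtype_le _, h5, by rw [← oddGenerated_eq, h1], fun N e1 e2 => ?_, fun g hg e => ?_, ?_,
    Amb.isPGroup_pCoreOf 2 X, map_mono fun x hx => ?_, Amb.le_normalizer_pCoreOf 2 X, P1.map _,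
    map_subtype_le _, hsup P2, ?_⟩
  · have := hsup (hfr N e1 e2)
    rwa [map_subgroupOf_eq_of_le e1] at this
  · have e1 := hfr _ (zpowers_le_of_mem hg) e
    have e2 : (zpowers g).subgroupOf X = zpowers (⟨g, hg⟩ : X) := by
      apply map_injective X.subtype_injective
      rw [map_subgroupOf_eq_of_le (zpowers_le_of_mem hg), MonoidHom.map_zpowers]
      rfl
    rw [e2, MonoidHom.map_zpowers] at e1
    rcases h4 with e | e
    · have e3 := Nat.card_zpowers (μ ⟨g, hg⟩)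
      rw [e1, card_top, e.1] at e3
      exact (FT.R2.lt_sq (p := p)).not_ge
        (e3 ▸ Nat.le_of_dvd hp.pos (orderOf_dvd_of_pow_eq_one (e.2.2 _)))
    · haveI : IsCyclic (X ⧸ pCore 2 X) := isCyclic_iff_exists_zpowers_eq_top.2 ⟨_, e1⟩
      exact e.2 inferInstance
  · have e1 : ⁅(⊤ : Subgroup X), (⊤ : Subgroup X)⁆ ≤ (frattini (X ⧸ pCore 2 X)).comap μ := by
      rw [← map_le_iff_le_comap, map_commutator, map_top_of_surjective μ hμ]
      exact Grp.PFrattini.commutator_le_frattini hP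
    have := map_mono (f := X.subtype) e1
    rwa [map_commutator, eX] at this
  · rw [mem_comap, QuotientGroup.mk'_apply, (QuotientGroup.eq_one_iff x).2 hx]
    exact one_mem _
  · rw [card_map_of_injective P X.subtype_injective]
    refine le_trans ?_ (Nat.le_of_dvd (pow_pos hp.pos 3) hc)
    refine Nat.card_le_card_of_injective (μ.comp P.subtype) ?_
    rw [← MonoidHom.ker_eq_bot_iff, eq_bot_iff]
    intro x hx
    have e1 : (x : X) ∈ pCore 2 X := (QuotientGroup.eq_one_iff _).1 hx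
    obtain ⟨k, hk⟩ := P1 x
    refine Subtype.ext (CP.eq_one_of_mem_pGroup (CP.isPGroup_pCore 2 X) e1 ?_)
    rw [orderOf_coe]
    exact Nat.Coprime.coprime_dvd_left (orderOf_dvd_of_pow_eq_one hk)
      (Nat.Coprime.pow_left _ ((Nat.coprime_primes hp Nat.prime_two).2 hp2))

end Cfsg.Agent.QT
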